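import Cfsg.Agent.H5.GS1

/-! Glauberman's characterization of the Suzuki groups: reduction to the simple case. -/

set_option autoImplicit false
set_option linter.unusedSectionVars false
set_option linter.unusedVariables false

namespace Cfsg.Agent.H22.GsRed

open Cfsg Subgroup Cfsg.Agent.H5.PP Cfsg.Agent.H8 Cfsg.Agent.H4

section

variable {p : ℕ} [hp : Fact p.Prime] {G : Type*} [Group G] [Finite G]

theorem core_sub (hO : pPrimeCore p G = ⊥) (M : Subgroup G) [M.Normal] : pPrimeCore p M = ⊥ := by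
  rw [← map_eq_bot_iff_of_injective _ M.subtype_injective, eq_bot_iff, ← hO]
  exact H2.pPrimeCore_map_subtype_le_of_normal M

theorem pgrp (hO : pPrimeCore p G = ⊥) (M : Subgroup G) [M.Normal]
    (h : HasNormalPComplement p M) : IsPGroup p M := by
  obtain ⟨N, hN, h1, h2⟩ := hasNPC_iff_exists_normal.1 h
  have e : N = ⊥ := by
    rw [eq_bot_iff, ← core_sub hO M]
    exact H2.le_pPrimeCore h1
  subst e
  exact h2.of_equiv QuotientGroup.quotientBot

theorem no_p (P : Sylow p G) (hO : pPrimeCore p G = ⊥) (hnn : ¬ P.1.Normal) (fa : FA P)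
    (nb : NB p G) (N : Subgroup G) [hN : N.Normal] (h : IsPGroup p N) : N = ⊥ := by
  by_contra hne
  have hd : p ∣ Nat.card N := by
    obtain ⟨k, hk⟩ := h.exists_card_eq
    rw [hk]
    refine dvd_pow_self p fun e => hne (card_eq_one.1 (by rw [hk, e, pow_zero]))
  obtain ⟨a, ha, aN, oa⟩ := exists_om P N hd
  have hNP : N ≤ P.1 := (IsSylowIn.sylow_top P).le_of_normal h le_top le_normalizer_of_normal
  have hB : (om P ⊓ N).Normal := ⟨fun b hb g =>
    ⟨fa.om.sc b hb.1 g (hNP (hN.conj_mem b hb.2 g)), hN.conj_mem b hb.2 g⟩⟩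
  have hPC : P.1 ≤ centralizer ((om P ⊓ N : Subgroup G) : Set G) := fun y hy b hb =>
    fa.om.cen b hb.1 y hy
  have hC := pgrp hO (centralizer ((om P ⊓ N : Subgroup G) : Set G))
    (hasNPC_of_le (centralizer_le (Set.singleton_subset_iff.2 ⟨ha, aN⟩)) (nb a oa))
  have := P.is_maximal' hC hPC
  exact hnn (this ▸ inferInstance)

theorem le_norm (P : Sylow p G) (hO : pPrimeCore p G = ⊥) (hnn : ¬ P.1.Normal) (fa : FA P)
    (nb : NB p G) (M : Subgroup G) [hM : M.Normal] (hne : M ≠ ⊥) : P.1 ≤ M := by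
  have hn : ¬ HasNormalPComplement p M := fun h => hne (no_p P hO hnn fa nb M (pgrp hO M h))
  have hd : p ∣ Nat.card M := by_contra fun e => hn (hasNPC_of_not_dvd e)
  obtain ⟨a, ha, aM, oa⟩ := exists_om P M hd
  have h1 := (IsSylowIn.sylow_top P).inf_of_normal_le (N := M) le_top le_normalizer_of_normal
  have sc : SC h1.toSylow ((om P).subgroupOf M) :=
    ⟨fun x hx => ⟨fa.om.le hx, x.2⟩, fun x hx y hy => Subtype.ext (fa.om.cen x hx y hy.1),
      fun x hx g hg => fa.om.sc x hx g hg.1⟩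
  obtain ⟨m, hm, hma⟩ := sc.noniso (a := ⟨a, aM⟩) ha
    (nb.sub M _ (by rw [Subgroup.orderOf_mk, oa])) hn
  have hm1 : (m : G) * a * (m : G)⁻¹ ∈ P.1 :=
    ((mem_normalizer_iff.1 hm ⟨a, aM⟩).1 ⟨fa.om.le ha, aM⟩).1
  have hm2 : (m : G) * a * (m : G)⁻¹ ≠ a := fun e => hma (Subtype.ext e)
  obtain ⟨n, hn1, hn2⟩ := fa a (fa.om.le ha) m hm1
  have a' : n * a * n⁻¹ ∈ om P := fa.om.sc a ha n (hn2 ▸ hm1)
  have oa' : orderOf (n * a * n⁻¹) = p := by
    rw [← MulAut.conj_apply, MulEquiv.orderOf_eq, oa]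
  have hs : pPart p n ∈ P.1 := by
    have e := (isPGroup_zpowers (orderOf_pPart (p := p) n)).inf_normalizer_sylow P
    have : pPart p n ∈ zpowers (pPart p n) ⊓ normalizer (P : Set G) :=
      ⟨mem_zpowers _, pPart_mem hn1⟩
    rw [e] at this
    exact this.2
  obtain ⟨d, hdn, hdz, hdo, hda⟩ : ∃ d ∈ normalizer (P.1 : Set G), d ∈ zpowers n ∧
      ¬ p ∣ orderOf d ∧ a * d ≠ d * a := by
    refine ⟨pReg p n, pReg_mem hn1, pReg_mem_zpowers n, not_dvd_orderOf_pReg n, fun e => hm2 ?_⟩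
    rw [← hn2, mul_inv_eq_iff_eq_mul]
    have c : Commute a (pReg p n * pPart p n) := Commute.mul_right e (fa.om.cen a ha _ hs)
    rw [pReg_mul_pPart] at c
    exact c.symm
  let f := QuotientGroup.mk' M
  have hK := hasNPC_map f (nb _ oa')
  have hfn : f n ∈ (centralizer ({n * a * n⁻¹} : Set G)).map f := by
    refine ⟨n * (m : G)⁻¹, mem_centralizer_singleton_iff.2 ?_, ?_⟩
    · calc n * (m : G)⁻¹ * (n * a * n⁻¹) = n * (m : G)⁻¹ * (m * a * (m : G)⁻¹) := by rw [hn2]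
        _ = _ := by group
    · have e : f m = 1 := (QuotientGroup.eq_one_iff (m : G)).2 m.2
      rw [map_mul, map_inv, e, inv_one, mul_one]
  have hfd : f d ∈ (centralizer ({n * a * n⁻¹} : Set G)).map f := by
    obtain ⟨k, rfl⟩ := mem_zpowers_iff.1 hdz
    rw [map_zpow]
    exact zpow_mem hfn k
  have cen := npc_cent hK (P.2.map f) (map_mono (fa.om.le_cen a')) hfd
    (by
      rintro _ ⟨y, hy, rfl⟩
      exact ⟨d * y * d⁻¹, (mem_normalizer_iff.1 hdn y).1 hy, by simp⟩)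
    (fun e => hdo (e.trans (orderOf_map_dvd f d)))
  have fpf : ∀ y ∈ P.1, y * d = d * y → y = 1 := fun y hy e => by_contra fun y1 =>
    hda (npc_cent (nb.elt (pElt_of_mem P.2 hy) y1) (P.2.to_le fa.om.le)
      (fun b hb => mem_centralizer_singleton_iff.2 (fa.om.cen b hb y hy))
      (mem_centralizer_singleton_iff.2 e.symm)
      (fun b hb => fa.om.sc b hb d ((mem_normalizer_iff.1 hdn b).1 (fa.om.le hb))) hdo a ha)
  have mem : ∀ y ∈ P.1, y⁻¹ * (d * y * d⁻¹) ∈ P.1 ⊓ M := fun y hy => by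
    refine ⟨P.1.mul_mem (P.1.inv_mem hy) ((mem_normalizer_iff.1 hdn y).1 hy), ?_⟩
    have e := cen _ ⟨y, hy, rfl⟩
    refine (QuotientGroup.eq_one_iff _).1 ?_
    change f _ = 1
    simp only [map_mul, map_inv, ← e]
    group
  have hle : Nat.card P.1 ≤ Nat.card (P.1 ⊓ M : Subgroup G) := by
    refine Nat.card_le_card_of_injective (fun y => ⟨_, mem y y.2⟩) fun y z e => ?_
    have e1 : (y : G)⁻¹ * (d * y * d⁻¹) = (z : G)⁻¹ * (d * z * d⁻¹) := congrArg Subtype.val e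
    have := fpf (z * (y : G)⁻¹) (mul_mem z.2 (inv_mem y.2)) (by
      calc (z : G) * (y : G)⁻¹ * d = z * ((y : G)⁻¹ * (d * y * d⁻¹)) * (d * (y : G)⁻¹) := by group
        _ = _ := by rw [e1]; group)
    exact Subtype.ext (mul_inv_eq_one.1 this).symm
  exact inf_eq_left.1 (eq_of_le_of_card_ge inf_le_left hle)

end

theorem red.{u} {p : ℕ} [Fact p.Prime] (hS : ∀ (G : Type u) [Group G] [Finite G] [IsSimpleGroup G] (P : Sylow p G), ¬ IsMulCommutative G → p ∣ Nat.card G → FA P → NB p G → PairS p G → ¬ (p = 2 ∧ IsElementaryAbelian 2 P.1 ∧ ∀ x ∈ P.1, ∀ y ∈ P.1, x ≠ 1 → y ≠ 1 → ∃ g : G, g * x * g⁻¹ = y) → p = 2 ∧ Lie.IsoSuzuki G) (hT : ∀ (G : Type u) [Group G] [Finite G] (M : Subgroup G) [M.Normal], Lie.IsoSuzuki M → centralizer (M : Set G) = ⊥ → ¬ 2 ∣ M.index → NB 2 G → M = ⊤) (G : Type u) [Group G] [Finite G] (P : Sylow p G) (hO : pPrimeCore p G = ⊥) (hnn : ¬ P.1.Normal) (fa : FA P) (nb : NB p G) (hc : PairS p G) (hd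 : ¬ (p = 2 ∧ IsElementaryAbelian 2 P.1 ∧ ∀ x ∈ P.1, ∀ y ∈ P.1, x ≠ 1 → y ≠ 1 → ∃ g : G, g * x * g⁻¹ = y)) : p = 2 ∧ Lie.IsoSuzuki G := by
  induction hn : Nat.card G using Nat.strong_induction_on generalizing G with
  | _ n ih =>
  have hP : P.1 ≠ ⊥ := fun e => hnn (e ▸ inferInstance)
  have hpd : p ∣ Nat.card P.1 := by
    obtain ⟨k, hk⟩ := P.2.exists_card_eq
    rw [hk]
    exact dvd_pow_self p fun e => hP (card_eq_one.1 (by rw [hk, e, pow_zero]))
  have hpG : p ∣ Nat.card G := hpd.trans (card_subgroup_dvd_card _)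
  by_cases hs : IsSimpleGroup G
  · exact hS G P (fun h => hnn inferInstance) hpG fa nb hc hd
  have : Nontrivial G := by
    by_contra e
    rw [not_nontrivial_iff_subsingleton] at e
    exact hP (Subsingleton.elim _ _)
  obtain ⟨N, hN, n1, n2⟩ : ∃ N : Subgroup G, N.Normal ∧ N ≠ ⊥ ∧ N ≠ ⊤ := by
    by_contra! e
    exact hs ⟨fun N hN => or_iff_not_imp_left.2 (e N hN)⟩
  have hPN := le_norm P hO hnn fa nb N n1
  have nn : ¬ N ≤ normalizer (P.1 : Set G) := fun e => hnn (by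
    rw [← normalizer_eq_top_iff, ← Sylow.normalizer_sup_eq_top' P hPN]
    exact (sup_eq_left.2 e).symm)
  obtain ⟨a, ha, aN, oa⟩ := exists_om P N (hpd.trans (card_dvd_of_le hPN))
  have sc : SC (P.subtype hPN) ((om P).subgroupOf N) :=
    ⟨fun x hx => fa.om.le hx, fun x hx y hy => Subtype.ext (fa.om.cen x hx y hy),
      fun x hx g hg => fa.om.sc x hx g hg⟩
  obtain ⟨rfl, hz⟩ := ih _ (hn ▸ (Nat.lt_of_le_of_ne (card_le_card_group N) fun e =>
      n2 (eq_top_of_card_eq N e))) N (P.subtype hPN) (core_sub hO N)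
    (fun e => nn ((normal_subgroupOf_iff_le_normalizer hPN).1 e))
    (sc.fa (a := ⟨a, aN⟩) ha (nb.sub N _ (by rw [Subgroup.orderOf_mk, oa]))) (nb.sub N) (hc.sub N)
    (fun ⟨e, ⟨e1, e2⟩, e3⟩ => hd ⟨e, ⟨⟨⟨fun x y => Subtype.ext (congrArg (fun z : (P.subtype hPN).1 => ((z : N) : G))
        (e1.1.1 ⟨⟨x, hPN x.2⟩, x.2⟩ ⟨⟨y, hPN y.2⟩, y.2⟩))⟩⟩,
        fun x hx => congrArg Subtype.val (e2 ⟨x, hPN hx⟩ hx)⟩, fun x hx y hy x1 y1 => by
      obtain ⟨g, hg⟩ := e3 ⟨x, hPN hx⟩ hx ⟨y, hPN hy⟩ hy (fun e => x1 (congrArg Subtype.val e))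
        (fun e => y1 (congrArg Subtype.val e))
      exact ⟨g, congrArg Subtype.val hg⟩⟩) rfl
  refine (n2 (hT G N hz ?_ (fun e => P.not_dvd_index (e.trans (index_dvd_of_le hPN))) nb)).elim
  by_contra e
  have := le_norm P hO hnn fa nb _ e
  exact nn ((le_centralizer_iff.1 this).trans (centralizer_le_normalizer _))

end Cfsg.Agent.H22.GsRed
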