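import Cfsg.Agent.H2.Balance3
import Cfsg.Agent.H4.PIrr
import Cfsg.Agent.FT.BG01

/-! Isolated `p`-minimal subgroups. -/

set_option autoImplicit false
set_option linter.unusedSectionVars false
set_option linter.style.haveILetI false

namespace Cfsg.Agent.P22

open Cfsg Subgroup Cfsg.Agent.FT
open scoped commutatorElement

universe u

variable {G : Type u} [Group G] [Finite G] {p t : ℕ} [hp : Fact p.Prime]
  {A E H K L M N P Q S T U X Y : Subgroup G} {g : G}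

theorem res_sup_le (hS : PGrp p S) (hn : S ≤ N(U)) : piGen {p}ᶜ (U ⊔ S) ≤ U :=
  piGen_min (sup_le (le_nrm _) hn) (by rw [compl_compl, relIndex_sup_norm hn]; exact hS.relIndex _)

/-- the data of an isolated `p`-minimal subgroup `ES` with `Q = O_p(L)` and `Y` the normal closure of `E` -/
structure Isol (p : ℕ) (S E L Q Y : Subgroup G) : Prop where
  pS : PGrp p S
  qS : Q ≤ S
  sL : S ≤ L
  nQ : L ≤ N(Q)
  sE : S ≤ N(E)
  alt : ∀ U, S ≤ N(U) → U ≤ L ∨ E ≤ U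
  gen : ⊤ ≤ E ⊔ L
  nO : ¬ Q ≤ O[{p}]((⊤ : Subgroup G))
  nY : Y ⊴ ⊤
  eY : E ≤ Y
  min : ∀ N, N ⊴ ⊤ → E ≤ N → Y ≤ N

namespace Isol

theorem map {G' : Type*} [Group G'] [Finite G'] (h : Isol p S E L Q Y) {f : G →* G'} (hf : Function.Surjective f)
    (k : f.ker = O[{p}]((⊤ : Subgroup G))) (o : O[{p}]((⊤ : Subgroup G')) = ⊥) :
    Isol p (S.map f) (E.map f) (L.map f) (Q.map f) (Y.map f) := by
  have t := map_top_of_surjective f hf
  refine ⟨h.pS.map f, map_mono h.qS, map_mono h.sL, map_norms f h.nQ, map_norms f h.sE, fun U hU => ?_,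
    t.ge.trans ((map_mono h.gen).trans (Subgroup.map_sup _ _ _).le), fun e => h.nO ?_, t ▸ h.nY.map f, map_mono h.eY,
    fun N hN e => map_le_iff_le_comap.2 (h.min _ (comap_top f ▸ hN.comap f) (map_le_iff_le_comap.1 e))⟩
  · exact (h.alt _ ((le_comap_map f S).trans (comap_norms f hU))).imp
      (fun e => (map_comap_eq_self_of_surjective hf U).ge.trans (map_mono e)) map_le_iff_le_comap.2
  · rwa [o, le_bot_iff, Subgroup.map_eq_bot_iff, k] at e

theorem pQ (h : Isol p S E L Q Y) : PGrp p Q := h.pS.mono h.qS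

theorem nN (h : Isol p S E L Q Y) : ¬ E ≤ N(Q) := fun e => h.nO (pcore_max h.pQ ⟨le_top, h.gen.trans (sup_le e h.nQ)⟩)

theorem nL (h : Isol p S E L Q Y) : ¬ E ≤ L := fun e => h.nN (e.trans h.nQ)

theorem yN (h : Isol p S E L Q Y) : ¬ Y ≤ N(Q) := fun e => h.nN (h.eY.trans e)

theorem nml (h : Isol p S E L Q Y) (h1 : Y ≤ N(X)) (h2 : L ≤ N(X)) : X ⊴ ⊤ :=
  ⟨le_top, h.gen.trans (sup_le (h.eY.trans h1) h2)⟩

theorem comm (h : Isol p S E L Q Y) (hU : S ≤ N(U)) (e : U ≤ L) : ⁅U, Q⁆ ≤ U ⊓ Q :=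
  le_inf (comm_le_left (h.qS.trans hU)) (comm_le_right (e.trans h.nQ))

variable (h : Isol p S E L Q Y) (o : O[{p}]((⊤ : Subgroup G)) = ⊥)
include h o

theorem alt' (hN : N ⊴ ⊤) : N ≤ L ∧ N ≤ C(Q) ∨ Y ≤ N :=
  (h.alt N (le_top.trans hN.nrm)).imp (fun e => ⟨e, comm_eq_bot.1 (eq_bot_iff.2 ((h.comm (le_top.trans hN.nrm) e).trans
    ((pcore_max_subn (h.pQ.inf_right _) ((Nml.subn ⟨inf_le_left, normsI (le_nrm _) (e.trans h.nQ)⟩).trans
      hN.subn)).trans o.le)))⟩) (h.min N hN)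

theorem le_gfit : Y ≤ F*((⊤ : Subgroup G)) := (h.alt' o (gfit_nml ⊤)).resolve_left fun e =>
  h.nO (h.pQ.le_pcore_of_le_fitting ((le_inf le_top (centsC e.2)).trans (cent_gfit ⊤)))

theorem comm_eq : Y ≤ ⁅Y, Q⁆ := by
  have n : L ≤ N(⁅Y, Q⁆) := normsR (le_top.trans h.nY.nrm) h.nQ
  exact (h.alt' o (h.nml (norm_comm_left _ _) n)).resolve_left fun e => h.nO (pcore_max_subn h.pQ
    ((Nml.subn ⟨le_sup_right, sup_le (cents_norm e.2) (le_nrm _)⟩).trans
      (h.nml (H22.le_N_comm_sup Q Y) (normsY n h.nQ)).subn))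

theorem pGrp (hY : PiGrp {p}ᶜ Y) : ∃ t, t.Prime ∧ t ≠ p ∧ PGrp t Y := by
  have sY : S ≤ N(Y) := le_top.trans h.nY.nrm
  choose T hT nT using fun r => coprime_Sylow_exists r sY (hY.cop' h.pS) (.inr h.pS.sol)
  have c : ∀ r, T r ≤ L → T r ≤ Y ⊓ C(Q) := fun r e => le_inf (hT r).le (comm_eq_bot.1 (eq_bot_iff.2
    ((h.comm (nT r) e).trans ((hY.mono (hT r).le).inf_eq_bot' h.pQ).le)))
  obtain ⟨t, ht, hd, e⟩ : ∃ t, t.Prime ∧ t ∣ #Y ∧ ¬ T t ≤ L := by
    by_contra! k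
    exact h.nL (h.eY.trans (le_of_forall_syl fun r hr hd => ⟨_, hT r, k r hr hd⟩))
  have eT := (h.alt _ (nT t)).resolve_left e
  have m := (hT t).mulEq_of_relIndex (R := Y ⊓ C(Q)) inf_le_left fun r hr hd => by_contra fun ne =>
    (hT r).relIndex_of_le (c r ((h.alt _ (nT r)).resolve_right fun a => h.nL
      (((le_inf eT a).trans ((hT t).pi.cop_of_ne (hT r).pi (Ne.symm ne)).inf.le).trans bot_le))) r hr hd rfl
  refine ⟨t, ht, hY t ht hd, (hT t).pi.mono (h.comm_eq o |>.trans (commutator_le.2 fun y hy q hq => ?_))⟩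
  obtain ⟨a, ha, b, hb, rfl⟩ := m.mul y hy
  rw [show ⁅a * b, q⁆ = a * (b * q) * b⁻¹ * a⁻¹ * q⁻¹ by simp only [commutatorElement_def]; group,
    ← mem_cen.1 hb.2 q hq, show a * (q * b) * b⁻¹ * a⁻¹ * q⁻¹ = a * (q * a⁻¹ * q⁻¹) by group]
  exact mul_mem ha (conj_mem (nT t (h.qS hq)) (inv_mem ha))

theorem phi : Phi Y ≤ L ∧ Phi Y ≤ C(Q) := (h.alt' o h.nY.Phi).resolve_right
  (Phi_lt fun e => h.nL (h.eY.trans (e.le.trans bot_le))).not_ge

theorem cls (hY : PGrp t Y) : ⁅Y, Y⁆ ≤ C(Y) := hY.der_le_Phi.trans (centsC ((h.comm_eq o).trans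
  ((commSS le_top (centsC (h.phi o).2)).trans (comm_le_right (norms_cent h.nY.Phi.nrm)))))

theorem eq_of_pGrp (ht : t.Prime) (ne : t ≠ p) (hY : PGrp t Y) : E = Y := by
  have n : ⊤ ≤ N(Phi Y) := h.nY.Phi.nrm
  have sY : S ≤ N(Y) := le_top.trans h.nY.nrm
  obtain ⟨W, d, nW⟩ := Maschke_abelem ht hY.abelem_quo_Phi ((h.pS.p' ne.symm).quo _) (quo_mono _ h.eY)
    (quo_norms _ sY) (quo_norms _ h.sE)
  have k : qpre(Phi Y, W) ≤ Y := qpre_le_of_le_quo (Phi_le Y) d.right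
  have nU := norms_qpre (le_top.trans n) nW
  rcases h.alt _ nU with e | e
  · refine Phi_nongen h.eY ((quo_le_quo (Phi_nrm Y) (le_top.trans n)).1 ?_)
    have c : W ≤ C(Q /ₛ Phi Y) := (quo_qpre W).ge.trans (quo_cents _ (comm_eq_bot.1 (eq_bot_iff.2 ((h.comm nU e).trans
      ((hY.mono k).cop_of_ne h.pQ ne).inf.le))))
    refine (quo_mono _ (h.comm_eq o)).trans ?_
    rw [quo_comm (Phi_nrm Y) (le_top.trans n), ← d.sup]
    exact comm_sup_le (d.sup.le.trans d.nml_left.nrm) (comm_le_left (quo_norms _ (h.qS.trans h.sE)))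
      ((comm_eq_bot.2 c).le.trans bot_le)
  · exact (h.nL (((quo_eq_bot (le_top.trans n)).1 (eq_bot_iff.2 ((le_inf le_rfl ((quo_le_iff
      (le_top.trans n)).2 e)).trans d.inf.le))).trans (h.phi o).1)).elim

theorem p'_of_nil (hY : Nil Y) : PiGrp {p}ᶜ Y := (fitting_pi (π := {p}ᶜ) (by rwa [compl_compl])).mono
  (fitting_max h.nY hY)

theorem lay_eq (hY : ¬ PiGrp {p}ᶜ Y) : E(Y) = Y := by
  have a := (h.alt' o h.nY.fitting).resolve_right fun e => hY (h.p'_of_nil o ((fitting_nil Y).mono e))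
  refine le_antisymm (lay_le Y) ((h.alt' o h.nY.lay).resolve_left fun e => h.nL (h.eY.trans ?_))
  exact ((gfit_eq_self h.nY.subn (h.le_gfit o)).symm.trans (gfit_eq Y)).trans_le (sup_le e.1 a.1)

theorem comp_not_le (hY : E(Y) = Y) (hK : Comp K Y) : ¬ K ≤ L := fun e => by
  have := (h.alt' o (N := sSup {K | Comp K Y ∧ ¬ K ≤ C(Q)}) (h.nml ?_ fun g hg => mem_nrm_of_cj_le (cj_le_iff.2
    (sSup_le fun A hA => cj_le_iff.1 (le_sSup ⟨hA.1.cj_of_nrm (h.nY.nrm trivial), fun c => hA.2 ?_⟩))))).resolve_left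
      fun c => h.yN (hY.ge.trans (lay_le_iff.2 fun A hA => cents_norm (by_contra fun d => d
        (le_trans (le_sSup (by exact ⟨hA, d⟩)) c.2))))
  · exact (hK.mem_of_le_sSup (fun _ a => a.1) (hK.le.trans this)).2
      ((hK.trans h.nY.subn).cents_sol le_top h.pQ.sol (e.trans h.nQ))
  · exact hY.ge.trans (lay_norms_subn (Subn.sSup fun _ a => a.1.subn))
  · rwa [← cj_of_mem_nrm (h.nQ hg), cj_cents] at c

theorem comp_trans (hY : ¬ PiGrp {p}ᶜ Y) {K₁ K₂ : Subgroup G} (h1 : Comp K₁ Y) (h2 : Comp K₂ Y) :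
    ∃ s ∈ S, K₂ = cj s K₁ := by
  by_contra! k
  have l := h.lay_eq o hY
  have a : ∀ {K}, Comp K Y → E ≤ H22.ncl S K := fun hK => (h.alt _ (H22.le_N_ncl _ _)).resolve_left fun e =>
    h.comp_not_le o l hK ((H22.le_ncl _ _).trans e)
  have c : H22.ncl S K₂ ≤ C(H22.ncl S K₁) := H22.ncl_le (norms_cent (H22.le_N_ncl _ _)) (centsC
    (H22.ncl_le_iff.2 fun s hs => (h1.cj_of_nrm (h.nY.nrm trivial)).cents_of_ne h2 (k s hs).symm))
  have s : Subn (H22.ncl S K₁) Y := Subn.sSup fun _ ⟨_, e⟩ => e ▸ (h1.cj_of_nrm (h.nY.nrm trivial)).subn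
  exact h.nL ((le_inf (a h1) ((a h2).trans c)).trans ((center_le_fitting _).trans ((fitting_mono_subn s).trans
    ((h.alt' o h.nY.fitting).resolve_right fun e => hY (h.p'_of_nil o ((fitting_nil Y).mono e))).1)))

end Isol

theorem pmin_cases (hS : Syl p S ⊤) (hH : S ≤ H) (h1 : ¬ H ≤ N) (h2 : N(S) ≤ N) :
    ∃ P, P ≤ H ∧ S ≤ P ∧ IsPMinimal p P ∧ ¬ P ≤ N := by
  obtain ⟨P, a, ⟨b, c⟩, d⟩ := H22.exists_minimal_subgroup (P := fun P => S ≤ P ∧ ¬ P ≤ N) ⟨hH, h1⟩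
  have s := hS.subl b le_top
  have u : ∀ X, S ≤ X → X < P → X ≤ N ⊓ P := fun X e1 e2 =>
    le_inf (by_contra fun e => e2.ne (d X ⟨e1, e⟩ e2.le)) e2.le
  refine ⟨P, a, b, H4.isPMinimal_of_minOv ⟨inf_lt_right.2 c, le_inf ((le_nrm S).trans h2) b, u, by_contra fun e => c ?_⟩
    ((syl_iff_sylIn hp.out).1 s), c⟩
  have n : H22.ncl P S ⊴ P := ⟨H22.ncl_le_self b, H22.le_N_ncl _ _⟩
  exact ((s.subl (H22.le_ncl _ _) n.le).frattini n).sup.ge.trans (sup_le
    ((u _ (H22.le_ncl _ _) (n.le.lt_of_ne e)).trans inf_le_left) (inf_le_right.trans h2))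

theorem isol_of (S : Sylow p G) (hSP : (S : Subgroup G) ≤ P)
    (hL : L = N((S : Subgroup G)) ⊔ ⨆ P' : {P' : Subgroup G // (S : Subgroup G) ≤ P' ∧ IsPMinimal p P' ∧ P' ≠ P}, P'.1)
    (hi : ¬ O[{p}](L) ≤ O[{p}](P)) :
    Isol p S (piGen {p}ᶜ P) L O[{p}](L) (normalClosure (piGen {p}ᶜ P : Set G)) := by
  have s := syl_top hp.out S
  have n : N((S : Subgroup G)) ≤ L := hL ▸ le_sup_left
  have sL := (le_nrm _).trans n
  have a : ∀ {H N}, S.1 ≤ H → L ≤ N → H ≤ N ∨ P ≤ H ∧ ¬ P ≤ N := fun hH hN => or_iff_not_imp_left.2 fun e => by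
    obtain ⟨P', b, c, d, e⟩ := pmin_cases s hH e (n.trans hN)
    obtain rfl : P' = P := by_contra fun k => e (le_trans (hL ▸ le_sup_of_le_right (le_iSup_of_le ⟨P', c, d, k⟩ le_rfl)) hN)
    exact ⟨b, e⟩
  refine ⟨s.pi, pcore_le_syl (s.subl sL le_top), sL, pcore_nrm _ _, hSP.trans (piGen_nml _ _).nrm, fun U hU =>
    (a le_sup_right le_rfl).imp le_sup_left.trans fun e => (piGen_mono _ e.1).trans (res_sup_le s.pi hU),
    (a le_top le_sup_right).resolve_right fun e => e.2 ?_, fun e => hi (e.trans (pcore_le_pcore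
      ((pcore_le_syl s).trans hSP) (le_top.trans (le_nrm _)))), nml_top_iff.2 inferInstance, le_normalClosure,
    fun N hN e => haveI := nml_top_iff.1 hN; normalClosure_le_normal e⟩
  exact (Hall.piGen_sup (hall_compl_compl.2 (s.subl hSP le_top))).ge.trans (sup_le_sup_left sL _)

theorem Isol.eq_of_map {G' : Type*} [Group G'] {f : G →* G'} (h : Isol p S E L Q Y) (r : piGen {p}ᶜ E = E)
    (k : f.ker = O[{p}]((⊤ : Subgroup G))) (l : O[{p}]((⊤ : Subgroup G)) ≤ S) (e : E.map f = Y.map f) : E = Y := by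
  refine le_antisymm h.eY ((h.min _ ⟨le_top, norms_piGen _ h.nY.nrm⟩ (r.ge.trans (piGen_mono _ h.eY))).trans
    ((piGen_mono _ ?_).trans (res_sup_le h.pS h.sE)))
  exact ((le_comap_map f Y).trans (e ▸ comap_map_eq f E).le).trans (sup_le_sup_left (k.le.trans l) _)

theorem pcoreTop (p : ℕ) [hp : Fact p.Prime] (G : Type*) [Group G] [Finite G] : O[{p}]((⊤ : Subgroup G)) = pCore p G :=
  (pcore_top _).trans (piCore_singleton hp.out)

theorem exists_emb (hY : Y ⊴ ⊤) [(pCore p G).Normal] [(pCore p Y).Normal] :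
    ∃ φ : Y ⧸ pCore p Y →* G ⧸ pCore p G, Function.Injective φ ∧
      φ.comp (QuotientGroup.mk' _) = (QuotientGroup.mk' _).comp Y.subtype := by
  have e : pCore p Y = (pCore p G).comap Y.subtype := by
    rw [← piCore_singleton hp.out, ← pcore_subgroupOf, ← pcore_inf_nml _ hY, pcoreTop, inf_subgroupOf_right]; rfl
  refine ⟨QuotientGroup.map _ _ Y.subtype e.le, (injective_iff_map_eq_one _).2 fun y hy => ?_, rfl⟩
  obtain ⟨y, rfl⟩ := QuotientGroup.mk_surjective y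
  exact (QuotientGroup.eq_one_iff _).2 (e.ge ((QuotientGroup.eq_one_iff y.1).1 hy))

theorem Isol.quo (h : Isol p S E L Q Y) [(pCore p G).Normal] :
    Isol p (S.map (QuotientGroup.mk' (pCore p G))) (E.map (QuotientGroup.mk' _)) (L.map (QuotientGroup.mk' _))
      (Q.map (QuotientGroup.mk' _)) (Y.map (QuotientGroup.mk' _)) ∧ O[{p}]((⊤ : Subgroup (G ⧸ pCore p G))) = ⊥ :=
  have o := (pcoreTop p _).trans H2.pCore_quotient_self
  ⟨h.map (QuotientGroup.mk'_surjective _) ((QuotientGroup.ker_mk' _).trans (pcoreTop p G).symm) o, o⟩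

theorem emb_top {G' J : Type*} [Group G'] [Group J] {f : G →* G'} {π : Y →* J} {φ : J →* G'}
    (hπ : Function.Surjective π) (e : φ.comp π = f.comp Y.subtype) : (⊤ : Subgroup J).map φ = Y.map f := by
  rw [← map_top_of_surjective π hπ, map_map, e, ← map_map, map_subtype_top]

end Cfsg.Agent.P22
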