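import Cfsg.Agent.H22.PU7

/-! A pair of characteristic subgroups for pushing up (Glauberman–Niles). -/

set_option autoImplicit false
set_option linter.unusedSectionVars false

namespace Cfsg.Agent.P22

open Cfsg Subgroup Cfsg.Agent.FT Matrix
open Cfsg.Agent.H5b (MaxAb Jn)
open scoped commutatorElement MatrixGroups

universe u

variable {G : Type u} [Group G] [Finite G] {p n : ℕ} [hp : Fact p.Prime]
  {A B D E H K L M M' N P P' Q R S T U V W X Y : Subgroup G} {a g s u v w x y z : G}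

def S0 (p : ℕ) (T : Subgroup G) : Subgroup G :=
  if p = 2 then ⁅Phi T, T⁆ ⊔ Phi (Phi T) else if p = 3 then ⁅⁅Phi T, T⁆, T⁆ ⊔ Phi (Phi T) else ⁅Phi T, T⁆ ⊔ ℧[p](T)

theorem S0_le (p : ℕ) (T : Subgroup G) : S0 p T ≤ T := by
  have a := comm_le_of_le (Phi_le T) le_rfl
  have b := (Phi_le _).trans (Phi_le T)
  unfold S0
  split_ifs
  exacts [sup_le a b, sup_le (comm_le_of_le a le_rfl) b, sup_le a (Mho_le _ _)]

theorem S0_mono (hT : PGrp p T) (h : H ≤ T) : S0 p H ≤ S0 p T := by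
  have a := hT.Phi_mono h
  have b := (hT.mono (Phi_le T)).Phi_mono a
  unfold S0
  split_ifs
  exacts [sup_le_sup (commSS a h) b, sup_le_sup (commSS (commSS a h) h) b, sup_le_sup (commSS a h) (Mho_mono p h)]

theorem map_Phi {G' : Type*} [Group G'] [Finite G'] (hT : PGrp p T) (f : G →* G') : (Phi T).map f = Phi (T.map f) := by
  rw [(hT.map f).Phi_eq hp.out, hT.Phi_eq hp.out, Subgroup.map_sup, map_commutator, map_Mho]

theorem map_S0 {G' : Type*} [Group G'] [Finite G'] (hT : PGrp p T) (f : G →* G') : (S0 p T).map f = S0 p (T.map f) := by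
  unfold S0
  split_ifs <;> simp only [Subgroup.map_sup, map_commutator, map_Mho, map_Phi hT, map_Phi (hT.mono (Phi_le T))]

theorem norms_S0 (hT : PGrp p T) (h : X ≤ N(T)) : X ≤ N(S0 p T) := fun g hg => by
  rw [← cj_eq_self, cj_def, map_S0 hT, ← cj_def, cj_of_mem_nrm (h hg)]

theorem comm_cp (hc : E ≤ C(H)) (hA : A ≤ H) (hB : B ≤ E) : ⁅A ⊔ B, H ⊔ E⁆ ≤ ⁅A, H⁆ ⊔ ⁅B, E⁆ :=
  have k : H ⊔ E ≤ N(⁅A, H⁆ ⊔ ⁅B, E⁆) := normsY (sup_le (norm_comm_right _ _) (cents_norm (centsS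
    (comm_le_of_le hA le_rfl) hc))) (sup_le (cents_norm (centsS (comm_le_of_le hB le_rfl) (centsC hc)))
      (norm_comm_right _ _))
  comm_sup_le ((sup_le_sup hA hB).trans k) (comm_sup_le' k le_sup_left ((comm_eq_bot'.2 (centsS hA hc)).trans_le bot_le))
    (comm_sup_le' k ((comm_eq_bot.2 (hB.trans hc)).trans_le bot_le) le_sup_right)

theorem Mho_cp (hc : E ≤ C(H)) : ℧[p](H ⊔ E) ≤ ℧[p](H) ⊔ ℧[p](E) := Mho_le_iff.2 fun x hx => by
  obtain ⟨a, ha, b, hb, rfl⟩ := (mem_sup_norm (cents_norm hc)).1 hx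
  rw [Commute.mul_pow (mem_cen.1 (hc hb) a ha)]
  exact mul_mem (mem_sup_left (pow_mem_Mho p ha)) (mem_sup_right (pow_mem_Mho p hb))

theorem Phi_cp (hT : PGrp p (H ⊔ E)) (hc : E ≤ C(H)) : Phi (H ⊔ E) = Phi H ⊔ Phi E := by
  refine le_antisymm ?_ (sup_le (hT.Phi_mono le_sup_left) (hT.Phi_mono le_sup_right))
  rw [hT.Phi_eq hp.out, (hT.mono le_sup_left).Phi_eq hp.out, (hT.mono le_sup_right).Phi_eq hp.out, sup_sup_sup_comm]
  exact sup_le_sup (comm_cp hc le_rfl le_rfl) (Mho_cp hc)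

theorem S0_cp (hT : PGrp p (H ⊔ E)) (hc : E ≤ C(H)) : S0 p (H ⊔ E) ≤ S0 p H ⊔ S0 p E := by
  have a := comm_cp hc (Phi_le H) (Phi_le E)
  have b := (Phi_cp (hT.mono (sup_le_sup (Phi_le H) (Phi_le E))) (centSS (Phi_le H) (Phi_le E) hc)).le
  unfold S0
  rw [Phi_cp hT hc]
  split_ifs <;> rw [sup_sup_sup_comm]
  exacts [sup_le_sup a b, sup_le_sup ((commSS a le_rfl).trans (comm_cp hc (comm_le_of_le (Phi_le H) le_rfl)
    (comm_le_of_le (Phi_le E) le_rfl))) b, sup_le_sup a (Mho_cp hc)]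

theorem S0_eq_bot (hY : Phi H ≤ Y) (el : Abelem p Y) (h1 : p ≠ 3 → ⁅Y, H⁆ = ⊥) (h2 : ⁅⁅Y, H⁆, H⁆ = ⊥)
    (h3 : p ≠ 2 → p ≠ 3 → ∀ x ∈ H, x ^ p = 1) : S0 p H = ⊥ := by
  have a := commSS hY (le_rfl : H ≤ H)
  have b := (el.mono hY).Phi_eq_bot hp.out
  unfold S0
  split_ifs with c d <;> rw [sup_eq_bot_iff]
  exacts [⟨eq_bot_of_le a (h1 (by omega)), b⟩, ⟨eq_bot_of_le (commSS a le_rfl) h2, b⟩,
    ⟨eq_bot_of_le a (h1 d), Mho_eq_bot_iff.2 (h3 c d)⟩]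

local notation "𝐐" => piCoreOf (Singleton.singleton p) P
local notation "𝐕" => Z(piCoreOf (Singleton.singleton p) P)
local notation "𝐐'" => piCoreOf (Singleton.singleton p) P'
local notation "𝐕'" => Z(piCoreOf (Singleton.singleton p) P')

theorem NatF.fin (k : NatF p V P T M) (pV : PGrp p V) (hz : Z(T) ≤ V) (e : H ⊔ E = T) (hc : E ≤ C(H)) (hE : E ≤ 𝐐)
    (h0 : S0 p H = ⊥) : S0 p T ⊓ C(T) ≤ C(P) := by
  have pT := k.pu.syl.pi
  have h1 : S0 p T ≤ S0 p E := by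
    have := S0_cp (e ▸ pT) hc
    rwa [e, h0, bot_sup_eq] at this
  have h2 : S0 p T = S0 p 𝐐 := le_antisymm (h1.trans (S0_mono (pcore_pi _ _) hE)) (S0_mono pT k.pu.pcore_le)
  rcases k.irr pV (inf_le_right : S0 p T ⊓ V ≤ V) (normsI (h2 ▸ norms_S0 (pcore_pi _ _) (pcore_nrm _ _)) k.r1.nL)
    with z | z
  · exact (le_inf inf_le_left ((inf_le_inf_right _ (S0_le p T)).trans hz)).trans z
  · exact (k.r1.not_cen (e.ge.trans (sup_le (centsC (z.ge.trans (sup_le (inf_le_right.trans (cen_anti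
      ((le_sup_left.trans e.le).trans k.pu.syl.le))) (inf_le_left.trans (h1.trans ((S0_le p E).trans hc))))))
        (hE.trans k.Q_cen)))).elim

/-- a group in which the subgroup `S₀ ∩ Z(S)` is not central -/
structure Gd (p : ℕ) (P S : Subgroup G) : Prop where
  pu : ∃ M, PUE p P S M
  cd : CDL S S
  el : Abelem p Z(S)
  s0 : ¬ S0 p S ⊓ C(S) ≤ C(P)

namespace Gd

theorem hz (h : Gd p P S) : ¬ Z(S) ≤ C(P) := fun z => h.s0 ((inf_le_inf_right _ (S0_le p S)).trans z)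

theorem syl (h : Gd p P S) : Syl p S P := h.pu.choose_spec.syl

theorem map {G' : Type*} [Group G'] [Finite G'] {f : G →* G'} (h : Gd p P S) (hf : Function.Injective f) :
    Gd p (P.map f) (S.map f) :=
  ⟨h.pu.elim fun _ a => ⟨_, a.map hf⟩, h.cd.map hf, map_subcent_inj hf S S ▸ h.el.map f, by
    rw [← map_S0 h.syl.pi, ← map_subcent_inj hf, map_cents_inj hf]; exact h.s0⟩

theorem conj (h : Gd p P S) (g : G) : Gd p (cj g P) (cj g S) := h.map (cj_inj g)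

theorem zv (h : Gd p P S) : Z(S) ≤ Vz p P := h.el.Ohm_eq.ge.trans (le_Vz h.syl)

theorem vz (h : Gd p P S) : Vz p P = 𝐕 := by
  obtain ⟨M, k⟩ := h.pu
  obtain ⟨x, hx, e⟩ := k.exists_opp
  exact le_antisymm ((Vz_le_Ohm k.cc).trans (Ohm_le _ _)) ((k.sup_z (k.cl_Q h.hz h.cd).1 hx e).ge.trans
    (sup_le h.zv (cj_le_of_nrm ((Vz_nml p P).nrm hx) h.zv)))

end Gd

theorem Sv.not_gd {c : ℕ} {𝒱 : Set (Subgroup G)} {A T : ℕ → Subgroup G} (h : Sv p c 𝒱 A T)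
    (k : ∀ B ∈ 𝒱, ∀ T, Syl p T B → Gd p B T) : False := by
  have pz := fun i => (h.el i).pGrp hp.out
  have g := fun i => k _ (h.vx i) _ (h.s0 i)
  obtain rfl | rfl := Nat.le_one_iff_eq_zero_or_eq_one.1 h.le_one
  · obtain ⟨M, n⟩ := (h.cr 0 0).1
    have e := le_sup_left.trans h.eT0.le
    have c := comm_eq_bot.2 (centsS e (h.quad 0))
    have nR := e.trans (norm_comm_right (Vz p (A 0)) _)
    refine (g 0).s0 (n.fin (pz 0) (g 0).zv h.eT0 h.fH0 inf_le_right (S0_eq_bot (((h.s0 0).pi.mono e).Phi_le_of_abelem_quo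
      hp.out nR ?_) ((h.el 0).mono (h.r0 0)) (fun _ => c) (by rw [c, commutator_bot_left]) fun a _ x hx =>
        h.exp0 dvd_rfl (hp.out.dvd_choose_self two_ne_zero (lt_of_le_of_ne hp.out.two_le a.symm)) hx))
    rw [quo_sup (le_sup_left.trans nR) (le_sup_right.trans nR)]
    exact ((h.el 0).quo _).sup ((h.el 1).quo _) (quo_cents_of_comm_le ((commSS le_sup_right le_sup_left).trans h.hH0))
  · obtain ⟨M, n⟩ := (h.cr 1 2).1
    obtain ⟨M', n'⟩ := (h.cr 0 1).2.1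
    have e := le_sup_left.trans h.eT.le
    refine (g 1).s0 (n.fin (pz 1) (g 1).zv h.eT h.fH (inf_le_left.trans (inf_le_left.trans inf_le_left))
      (S0_eq_bot ((((h.s0 1).pi.mono e).Phi_le_iff hp.out).2 h.hH) ((h.el 1).sup (h.el 2) (h.zz 2 1))
        (fun a => (a h.three).elim) (comm_eq_bot.2 (centsS e ((commSS le_rfl e).trans (comm_sup_le
          ((le_sup_left.trans e).trans (norms_cent (le_nrm _))) n.quad n'.quad)))) fun _ a => (a h.three).elim))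

theorem pair_sv (h : Gd p P S) (h' : Gd p P' S) (n : ¬ P ≤ N(𝐕 ⊔ 𝐕')) (n' : ¬ P' ≤ N(𝐕 ⊔ 𝐕'))
    (hc : ∃ g ∈ P', ¬ cj g 𝐕 ≤ 𝐐 ∨ ¬ 𝐕 ≤ 𝐐') : False := by
  let 𝒱 := {B | ∃ g, B = cj g P ∨ B = cj g P'}
  have fl : ∀ B ∈ 𝒱, ∀ T, Syl p T B → ∃ g, T = cj g S ∧ (B = cj g P ∨ B = cj g P') := by
    rintro _ ⟨g, rfl | rfl⟩ T hT
    · obtain ⟨k, a, b⟩ := flag h.syl hT
      exact ⟨k, b, .inl a⟩
    · obtain ⟨k, a, b⟩ := flag h'.syl hT
      exact ⟨k, b, .inr a⟩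
  have gd : ∀ B ∈ 𝒱, ∀ T, Syl p T B → Gd p B T := fun B hB T hT => by
    obtain ⟨g, rfl, rfl | rfl⟩ := fl B hB T hT
    exacts [h.conj g, h'.conj g]
  have cc : ∀ B ∈ 𝒱, B ⊓ C(O[{p}](B)) ≤ O[{p}](B) := fun B hB =>
    (exists_syl p B).elim fun T hT => (gd B hB T hT).pu.choose_spec.cc
  have zq := fun B hB => (Vz_le_Ohm (cc B hB)).trans (Ohm_le _ _)
  have cn : ∀ B ∈ 𝒱, ∀ g, cj g B ∈ 𝒱 := by
    rintro _ ⟨g, rfl | rfl⟩ k
    exacts [⟨_, .inl (cj_cj _ _ _)⟩, ⟨_, .inr (cj_cj _ _ _)⟩]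
  have m : P ∈ 𝒱 := ⟨1, .inl (cj_one P).symm⟩
  have m' : P' ∈ 𝒱 := ⟨1, .inr (cj_one P').symm⟩
  have sh : ∀ B ∈ 𝒱, ∀ B' ∈ 𝒱, ∀ T, Syl p T B → Syl p T B' → B ≤ N(VT p 𝒱 (Vz p) T) →
      B ≤ N(Vz p B ⊔ Vz p B') := fun B hB B' hB' T a b e => by
    obtain ⟨M, k⟩ := (gd B hB T a).pu
    have nz := (Vz_nml p B).nrm
    have c : ⁅T, VT p 𝒱 (Vz p) T⁆ ≤ Vz p B := (le_Cm.1 (iSup_le fun D => by
      have d := gd _ D.2.1 T D.2.2
      obtain ⟨M, l⟩ := d.pu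
      rw [d.vz]
      exact le_Cm.2 ⟨l.vs.trans (a.le.trans nz), (le_inf (comm_le_of_le le_rfl l.vs) ((commC _ _).trans_le
        (l.cl_Q d.hz d.cd).1.quad)).trans (gd B hB T a).zv⟩)).2
    exact norms_of_comm_le ((commSS (sup_le (Fam.le_VT hB a) (Fam.le_VT hB' b)) le_rfl).trans ((le_Cm.1 (k.le_of_nml
      (norms_Cm nz e) (le_Cm.2 ⟨a.le.trans nz, (commC _ _).trans_le c⟩))).2.trans le_sup_left))
  have f : Fam p 𝒱 (Vz p) := ⟨cn, fun B _ g => (cj_Vz g p B).symm, fun B hB T hT => (gd B hB T hT).pu.imp fun _ a => a.toPU0,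
    fun B hB => (abelem_Vz (cc B hB)).ab, fun B hB => (zq B hB).trans inf_le_left,
    fun B hB => centsC ((zq B hB).trans inf_le_right),
    fun B hB T hT z => (gd B hB T hT).hz ((le_inf (gd B hB T hT).zv inf_le_right).trans z), fun B hB T hT e => by
      obtain ⟨g, rfl, rfl | rfl⟩ := fl B hB T hT
      · have := sh _ hB _ (cn _ m' g) _ hT (h'.syl.cj g) e
        rw [← cj_Vz, ← cj_Vz, ← cj_sup, cj_norms, h.vz, h'.vz] at this
        exact n this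
      · have := sh _ hB _ (cn _ m g) _ hT (h.syl.cj g) e
        rw [← cj_Vz, ← cj_Vz, ← cj_sup, cj_norms, h.vz, h'.vz, sup_comm] at this
        exact n' this⟩
  obtain ⟨c, A, T, s⟩ := f.exists_sq (by
    obtain ⟨g, hg, z | z⟩ := hc
    · exact ⟨2, _, _, .succ (.succ (.zero (cn _ m g)) m' (h.syl.cj g) (h'.syl.cj_mem hg)) m h'.syl h.syl,
        by rwa [← cj_Vz, h.vz]⟩
    · exact ⟨1, _, _, .succ (.zero m) m' h.syl h'.syl, by rwa [h.vz]⟩)
  exact Sv.not_gd ⟨s, cc⟩ gd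

theorem pair_main (h : Gd p P S) (h' : Gd p P' S) (ga : ∀ K, ¬ S ≤ K → ∃ A, CL S A ∧ Ab A ∧ ¬ A ≤ K) :
    𝐕' ≤ 𝐐 ∧ P ≤ N(𝐐 ⊓ 𝐐') := by
  obtain ⟨M, k⟩ := h.pu
  obtain ⟨M', k'⟩ := h'.pu
  have sy : 𝐕 ≤ 𝐐' → 𝐕' ≤ 𝐐 := fun z => (le_inf k'.vs (center_le_cen z)).trans (k.icen h.hz).le
  have sy' : 𝐕' ≤ 𝐐 → 𝐕 ≤ 𝐐' := fun z => (le_inf k.vs (center_le_cen z)).trans (k'.icen h'.hz).le
  have px : PGrp p (𝐕 ⊔ 𝐕') := k.syl.pi.mono (sup_le k.vs k'.vs)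
  have uq : 𝐕' ≤ 𝐐 := by_contra fun z => pair_sv h h' (fun a => z (le_sup_right.trans (pcore_max px
    ⟨(sup_le k.vs k'.vs).trans k.syl.le, a⟩))) (fun a => z (sy (le_sup_left.trans (pcore_max px
      ⟨(sup_le k.vs k'.vs).trans k'.syl.le, a⟩)))) ⟨1, one_mem _, .inr (mt sy z)⟩
  refine ⟨uq, by_contra fun n => ?_⟩
  have ne : 𝐐' ≠ 𝐐 := fun e => n (by rw [e, inf_idem]; exact k.nQ)
  have r : P2 p P P' S M M' := ⟨k.pr k' h.hz h'.hz h.cd uq ne, k'.pr k h'.hz h.hz h.cd (sy' uq) ne.symm, h.el, ga⟩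
  have n' := r.one n
  obtain ⟨g, hg, e⟩ := k'.exists_opp
  have d : ∀ {Q B : Subgroup G}, 𝐐 ⊓ 𝐐' ≤ Q → Q ≤ S → B ≤ N(Q) → B ≤ N(𝐕 ⊔ 𝐕') → B ≤ N(𝐐 ⊓ 𝐐') := fun a b c z => by
    rw [← r.l.zd] at z
    rw [← le_antisymm ((inf_le_inf_right _ b).trans r.l.dl.cc.le) (le_inf a (le_cen_center le_rfl))]
    exact norms_subcent c z
  exact pair_sv h h' (mt (d inf_le_left k.qs k.nQ) n) (mt (d inf_le_right k'.qs k'.nQ) n')
    ⟨g, hg, .inl (r.mu n (by rwa [inf_comm]) hg e)⟩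

/-! ### the abstract `p`-group -/

section

variable {G' : Type*} [Group G'] [Finite G'] {f : G →* G'}

theorem cl_map_iff (hf : Function.Injective f) : CL (S.map f) (X.map f) ↔ CL S X := by
  rw [cl_iff, cl_iff, ms_map_inj hf, mu_map hf, map_le_map_iff_of_injective hf]

theorem mcl_map_iff (hf : Function.Injective f) : MCL (S.map f) (X.map f) ↔ MCL S X :=
  and_congr (cl_map_iff hf) ⟨fun h Y a b => Subgroup.map_injective hf (h _ (map_mono a) (b.map hf)), fun h Y a b => by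
    obtain ⟨Y, c, rfl⟩ := exists_map_eq a
    rw [h Y c ((cl_map_iff hf).1 b)]⟩

theorem mco_map_iff (hf : Function.Injective f) : MCO p (S.map f) (X.map f) ↔ MCO p S X := by
  have e : ∀ Y : Subgroup G, #Ω[p](Z(Y.map f)) = #Ω[p](Z(Y)) := fun Y => by
    rw [← map_subcent_inj hf, ← map_Ohm_inj hf, card_map_inj hf]
  refine and_congr (mcl_map_iff hf) ⟨fun h Y a => by simpa only [e] using h _ ((mcl_map_iff hf).2 a), fun h Y a => ?_⟩
  obtain ⟨Y, -, rfl⟩ := exists_map_eq a.le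
  simpa only [e] using h Y ((mcl_map_iff hf).1 a)

theorem map_SM (hf : Function.Injective f) (S : Subgroup G) : (sSup {X | MCL S X}).map f = sSup {X | MCL (S.map f) X} := by
  refine le_antisymm (map_le_iff_le_comap.2 (sSup_le fun R h => map_le_iff_le_comap.1 (le_sSup ((mcl_map_iff hf).2 h))))
    (sSup_le fun X h => ?_)
  obtain ⟨X, -, rfl⟩ := exists_map_eq h.le
  exact map_mono (le_sSup ((mcl_map_iff hf).1 h))

theorem map_SP (hf : Function.Injective f) (hS : PGrp p S) : (sSup {Y | ∃ X, MCO p S X ∧ Y = Phi X}).map f =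
    sSup {Y | ∃ X, MCO p (S.map f) X ∧ Y = Phi X} := by
  refine le_antisymm (map_le_iff_le_comap.2 (sSup_le ?_)) (sSup_le ?_) <;> rintro _ ⟨X, h, rfl⟩
  · exact map_le_iff_le_comap.1 (le_sSup ⟨_, (mco_map_iff hf).2 h, map_Phi (hS.mono h.1.le) f⟩)
  · obtain ⟨X, a, rfl⟩ := exists_map_eq h.1.le
    exact map_Phi (hS.mono a) f ▸ map_mono (le_sSup ⟨_, (mco_map_iff hf).1 h, rfl⟩)

end

theorem ms_top (X : Subgroup G) : ms ⊤ X = #X * #C(X) := by rw [ms, top_inf_eq]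

theorem mu_top : maxCentralizerProduct (⊤ : Subgroup G) = maxCentralizerProduct G := by
  obtain ⟨X, -, h⟩ := exists_cdl (⊤ : Subgroup G)
  obtain ⟨Y, k⟩ := H4.exists_cd (G := G)
  exact le_antisymm (h.ge.trans ((ms_top X).trans_le (H4.le_mu X))) (k.ge.trans ((ms_top Y).ge.trans (ms_le_mu le_top)))

theorem cd_top : CDL ⊤ X ↔ IsCentralizerLarge X := by
  rw [CDL, ms_top, mu_top, and_iff_right le_top]; rfl

theorem cl_top : CL ⊤ X ↔ IsCentrallyLarge X := by rw [CL, cd_top, H4.cl_iff, top_inf_eq]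

theorem mcl_top : MCL ⊤ X ↔ IsMinimalCentrallyLarge X :=
  and_congr cl_top (forall₂_congr fun _ _ => imp_congr_left cl_top)

theorem center_top' : Z((⊤ : Subgroup G)) = center G := by rw [top_inf_eq, coe_top, centralizer_univ]

theorem char_of_map (h : ∀ φ : G ≃* G, X.map φ.toMonoidHom = X) : X.Characteristic := characteristic_iff_map_eq.2 h

theorem map_top_equiv (φ : G ≃* G) : (⊤ : Subgroup G).map φ.toMonoidHom = ⊤ := map_top_of_surjective _ φ.surjective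

local notation "𝐉" => C(Z(thompsonSubgroupA G))

theorem map_ZJ {H : Type u} [Group H] {τ : G →* H} (h : Function.Injective τ) :
    Z(thompsonSubgroupA G).map τ = Z(Jn 0 ((⊤ : Subgroup G).map τ)) := by
  rw [map_subcent_inj h, ← H5b.Jn_top_zero, H5b.map_Jn h]

/-- a pair of characteristic subgroups for pushing up -/
structure Out (p : ℕ) (S₁ S₂ : Subgroup G) : Prop where
  n1 : S₁ ≠ ⊥
  n2 : S₂ ≠ ⊥
  c1 : S₁.Characteristic
  c2 : S₂.Characteristic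
  z : S₁ ≤ center G
  j : S₂ ≤ 𝐉
  c3 : (S₂.subgroupOf 𝐉).Characteristic
  good : ∀ (H : Type u) [Group H] [Finite H] (τ : G →* H) (M : Subgroup H), Function.Injective τ →
    PUE p ⊤ ((⊤ : Subgroup G).map τ) M → S₁.map τ ≤ C((⊤ : Subgroup H)) ∨ ⊤ ≤ N(S₂.map τ)

theorem out_J (n1 : X ≠ ⊥) (c1 : X.Characteristic) (z : X ≤ Z((⊤ : Subgroup G)))
    (good : ∀ (H : Type u) [Group H] [Finite H] (τ : G →* H) (M : Subgroup H), Function.Injective τ →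
      PUE p ⊤ ((⊤ : Subgroup G).map τ) M → X.map τ ≤ C((⊤ : Subgroup H)) ∨
        ⊤ ≤ N((⊤ : Subgroup G).map τ ⊓ C(Z(Jn 0 ((⊤ : Subgroup G).map τ))))) : Out p X 𝐉 :=
  have e : ∀ {H : Type u} [Group H] {τ : G →* H}, Function.Injective τ →
      (𝐉).map τ = (⊤ : Subgroup G).map τ ⊓ C(Z(Jn 0 ((⊤ : Subgroup G).map τ))) := fun h => by
    rw [← map_ZJ h, ← map_subcent_inj h, top_inf_eq]
  ⟨n1, ne_bot_of_le (z.trans (center_le_cen le_top)) n1, c1, char_of_map fun φ => by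
    rw [e φ.injective, map_top_equiv, top_inf_eq, H5b.Jn_top_zero], (center_top' (G := G)) ▸ z, le_rfl,
    by rw [subgroupOf_self]; infer_instance, fun H _ _ τ M a b => e a ▸ good H τ M a b⟩

theorem out_top (hJ : 𝐉 = ⊤) (n1 : X ≠ ⊥) (n2 : Y ≠ ⊥) (c1 : X.Characteristic) (c2 : Y.Characteristic)
    (z : X ≤ Z((⊤ : Subgroup G))) (good : ∀ (H : Type u) [Group H] [Finite H] (τ : G →* H) (M : Subgroup H),
      Function.Injective τ → PUE p ⊤ ((⊤ : Subgroup G).map τ) M → X.map τ ≤ C((⊤ : Subgroup H)) ∨ ⊤ ≤ N(Y.map τ)) :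
    Out p X Y :=
  ⟨n1, n2, c1, c2, (center_top' (G := G)) ▸ z, hJ ▸ le_top, by
    rw [hJ]
    exact characteristic_iff_le_comap.2 fun φ x hx => characteristic_iff_le_comap.1 c2
      ((topEquiv.symm.trans φ).trans topEquiv) hx, good⟩

/-- the cores of the groups in which `S₀ ∩ Z(S)` is not central -/
def Cores (p : ℕ) (G : Type u) [Group G] [Finite G] : Set (Subgroup G) := {Q | ∃ (H : Type u) (_ : Group H) (_ : Finite H)
  (τ : G →* H), Function.Injective τ ∧ Gd p ⊤ ((⊤ : Subgroup G).map τ) ∧ Q.map τ = O[{p}]((⊤ : Subgroup H))}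

theorem cores_pair (ga : ∀ K : Subgroup G, ¬ ⊤ ≤ K → ∃ A, CL ⊤ A ∧ Ab A ∧ ¬ A ≤ K) {H : Type u} [Group H] [Finite H]
    {τ : G →* H} (hτ : Function.Injective τ) (h : Gd p ⊤ ((⊤ : Subgroup G).map τ))
    (e : Q.map τ = O[{p}]((⊤ : Subgroup H))) (hR : R ∈ Cores p G) : Z(R) ≤ Q ∧ ⊤ ≤ N((Q ⊓ R).map τ) := by
  obtain ⟨H', _, _, τ', hτ', h', e'⟩ := hR
  obtain ⟨L, _, _, f, g, hf, hg, k⟩ := exists_completion τ τ' hτ hτ'
  have k' : ∀ X : Subgroup G, (X.map τ').map g = (X.map τ).map f := fun X => by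
    rw [Subgroup.map_map, Subgroup.map_map, MonoidHom.ext (f := f.comp τ) (g := g.comp τ') k]
  have := pair_main (h.map hf) (k' ⊤ ▸ h'.map hg) fun K hK => by
    obtain ⟨A, a, b, c⟩ := ga _ (mt map_le_iff_le_comap.2 (mt map_le_iff_le_comap.2 hK))
    exact ⟨_, (a.map hτ).map hf, (b.map τ).map f, mt map_le_iff_le_comap.1 (mt map_le_iff_le_comap.1 c)⟩
  rwa [← map_pcore_inj hf, ← map_pcore_inj hg, ← e, ← e', k', ← map_subcent_inj hf, ← map_subcent_inj hτ,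
    ← Subgroup.map_inf _ _ _ hf, ← Subgroup.map_inf _ _ _ hτ, map_norms_inj hf, map_le_map_iff_of_injective hf,
    map_le_map_iff_of_injective hτ] at this

theorem cores_cl (ga : ∀ K : Subgroup G, ¬ ⊤ ≤ K → ∃ A, CL ⊤ A ∧ Ab A ∧ ¬ A ≤ K) (cd : CDL (⊤ : Subgroup G) ⊤) :
    CL ⊤ (sInf (Cores p G)) := by
  have cl : ∀ Q ∈ Cores p G, CL ⊤ Q := by
    rintro Q ⟨H, _, _, τ, hτ, h, e⟩
    exact (cl_map_iff hτ).1 (e ▸ (h.pu.choose_spec.cl_Q h.hz h.cd).2)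
  obtain ⟨B, -, ⟨a, b, c⟩, d⟩ := exists_min (fun X => CDL ⊤ X ∧ sInf (Cores p G) ≤ X ∧ ∀ Q ∈ Cores p G, ⊤ ⊓ C(X) ≤ Q)
    ⟨cd, le_top, fun Q hQ => (cl Q hQ).center_le.trans inf_le_left⟩
  have e : sInf (Cores p G) = B := le_antisymm b (le_sInf fun R hR => inf_eq_left.1 (d _ ⟨a.inf (cl R hR).1,
    le_inf b (sInf_le hR), fun Q hQ => by
      rw [a.cen_inf (cl R hR).1, (cl R hR).cen_eq]
      obtain ⟨H, _, _, τ, hτ, h, e⟩ := id hQ
      exact sup_le (c Q hQ) (cores_pair ga hτ h e hR).1⟩ inf_le_left))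
  exact e ▸ ⟨a, (le_sInf c).trans b⟩

theorem cores_nml (ga : ∀ K : Subgroup G, ¬ ⊤ ≤ K → ∃ A, CL ⊤ A ∧ Ab A ∧ ¬ A ≤ K) {H : Type u} [Group H] [Finite H]
    {τ : G →* H} (hτ : Function.Injective τ) (h : Gd p ⊤ ((⊤ : Subgroup G).map τ)) :
    ⊤ ≤ N((sInf (Cores p G)).map τ) := by
  obtain ⟨Q, -, e⟩ := exists_map_eq h.pu.choose_spec.qs
  have hQ : Q ∈ Cores p G := ⟨H, _, ‹_›, τ, hτ, h, e⟩
  refine le_nrm_iff.2 fun g hg x hx => ?_
  obtain ⟨x, hx, rfl⟩ := hx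
  have k := fun R hR => le_nrm_iff.1 (cores_pair ga hτ h e hR).2 g hg _
    (mem_map_of_mem τ (show x ∈ Q ⊓ R from ⟨mem_sInf.1 hx Q hQ, mem_sInf.1 hx R hR⟩))
  obtain ⟨y, -, hy⟩ := k Q hQ
  refine ⟨y, mem_sInf.2 fun R hR => ?_, hy⟩
  obtain ⟨w, hw, e'⟩ := k R hR
  exact hτ (e'.trans hy.symm) ▸ hw.2

theorem cores_char : (sInf (Cores p G)).Characteristic :=
  characteristic_iff_le_comap.2 fun φ x hx => mem_sInf.2 fun Q ⟨H, _, _, τ, hτ, h, e⟩ =>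
    mem_sInf.1 hx (Q.comap φ.toMonoidHom) ⟨H, _, ‹_›, τ.comp φ.toMonoidHom, hτ.comp φ.injective, by
      rwa [← Subgroup.map_map, map_top_equiv], by
      rw [← Subgroup.map_map, map_comap_eq_self_of_surjective φ.surjective, e]⟩

theorem cl_SM (S : Subgroup G) : CL S (sSup {X | MCL S X}) := by
  obtain ⟨R, hR⟩ := H4.exists_cl (G := S)
  obtain ⟨R, -, hR⟩ := H4.exists_mcl_le hR
  exact map_sSup_mcl S ▸ cl_map.2 (H4.cl_sSup ⟨R, hR⟩ fun _ h => h.1)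

theorem CL.ne_bot (h : CL S X) (n : S ≠ ⊥) : X ≠ ⊥ := fun e => n (le_bot_iff.1 (by
  have := h.2
  rwa [e, cen_bot, inf_top_eq] at this))

theorem CL.mcp (h : CL ⊤ X) (hJ : 𝐉 = ⊤) : maxCentralProduct X = maxCentralProduct 𝐉 := by
  rw [hJ, H4.maxCentral_eq, H4.maxCentral_eq, h.mu]

theorem map_ztop {H : Type u} [Group H] {τ : G →* H} (h : Function.Injective τ) :
    Z((⊤ : Subgroup G)).map τ = Z((⊤ : Subgroup G).map τ) := map_subcent_inj h _ _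

theorem ztop_char : Z((⊤ : Subgroup G)).Characteristic := char_of_map fun φ => by
  rw [map_ztop φ.injective, map_top_equiv]

theorem cd_of_J (hJ : 𝐉 = ⊤) : CDL (⊤ : Subgroup G) ⊤ := cd_self (by rw [H5b.Jn_top_zero, hJ])

theorem J_top (hJ : 𝐉 = ⊤) (m : ∀ X : Subgroup G, IsMinimalCentrallyLarge X ↔ X ∈ maxAbelianSubgroups G) :
    thompsonSubgroupA G = ⊤ := by
  have cJ : CDL ⊤ (thompsonSubgroupA G) := (cl_top.2 (H4.cl_sSup H4.exists_maxAb fun A hA => ((m A).2 hA).1)).1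
  rw [← cJ.cc, eq_top_iff]
  refine le_inf le_rfl (hJ.ge.trans (cen_anti (le_inf ?_ inf_le_right)))
  obtain ⟨A, hA⟩ := H4.exists_maxAb (G := G)
  exact inf_le_right.trans ((cen_anti (le_sSup hA)).trans ((H4.maxAb_C hA).le.trans (le_sSup hA)))

/-- Glauberman–Niles -/
theorem master [Nontrivial G] (hG : PGrp p (⊤ : Subgroup G)) :
    (∃ S₁ S₂ : Subgroup G, Out p S₁ S₂ ∧ maxCentralProduct S₂ = maxCentralProduct 𝐉) ∨
      ¬ Ab (⊤ : Subgroup G) ∧ 𝐉 = ⊤ ∧ Abelem p Z((⊤ : Subgroup G)) ∧ S0 p (⊤ : Subgroup G) = ⊥ ∧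
        ∀ X : Subgroup G, IsMinimalCentrallyLarge X ↔ X ∈ maxAbelianSubgroups G := by
  have t : ∀ {X : Subgroup G}, X.Characteristic → X ≠ ⊥ → X ⊓ Z((⊤ : Subgroup G)) ≠ ⊥ ∧
      (X ⊓ Z((⊤ : Subgroup G))).Characteristic := fun a b =>
    ⟨hG.nil.meet_center (nml_top_iff.2 inferInstance) b, by haveI := ztop_char (G := G); infer_instance⟩
  by_cases ab : Ab (⊤ : Subgroup G)
  · refine .inl ⟨_, _, out_J (hG.center_ne_bot top_ne_bot) ztop_char le_rfl fun H _ _ τ M a b => .inr ?_, rfl⟩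
    have n := le_antisymm b.qs ((le_inf le_rfl ((ab.map τ).cents b.qs le_rfl)).trans
      (b.cen_eq.le.trans inf_le_left)) ▸ b.nQ
    exact norms_subcent n (norms_center (norms_Jn n))
  by_cases h1 : ⁅Z(thompsonSubgroupA G), (⊤ : Subgroup G)⁆ = ⊥
  swap
  · obtain ⟨c, d⟩ := t (char_of_map fun φ => by
      rw [map_commutator, map_ZJ φ.injective, map_top_equiv, H5b.Jn_top_zero]) h1
    exact .inl ⟨_, _, out_J c d inf_le_right fun H _ _ τ M a b => by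
      rw [Subgroup.map_inf _ _ _ a, map_commutator, map_ZJ a, map_ztop a]; exact b.J_comm, rfl⟩
  have hJ : 𝐉 = ⊤ := eq_top_iff.2 (comm_eq_bot'.1 h1)
  by_cases h2 : ℧[p](Z((⊤ : Subgroup G))) = ⊥
  swap
  · exact .inl ⟨_, _, out_J h2 (char_of_map fun φ => by rw [map_Mho, map_ztop φ.injective, map_top_equiv])
      (Mho_le _ _) fun H _ _ τ M a b => by rw [map_Mho, map_ztop a]; exact b.J_mho, rfl⟩
  have el : Abelem p Z((⊤ : Subgroup G)) := abelem_iff.2 ⟨ab_center _, Mho_eq_bot_iff.1 h2⟩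
  have cd := cd_of_J hJ
  obtain ⟨R, hR⟩ := exists_mcl (⊤ : Subgroup G)
  by_cases h3 : ⁅R, R⁆ = ⊥
  swap
  · obtain ⟨c, d⟩ := t (char_of_map fun φ => by
      rw [map_commutator, hR.der (map_top_equiv φ ▸ (mcl_map_iff φ.injective).2 hR)]) h3
    exact .inl ⟨_, _, out_top hJ c ((cl_SM ⊤).ne_bot top_ne_bot) d (char_of_map fun φ => by
      rw [map_SM φ.injective, map_top_equiv]) inf_le_right fun H _ _ τ M a b => by
        rw [Subgroup.map_inf _ _ _ a, map_commutator, map_ztop a, map_SM a, inf_comm]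
        exact b.mcl_cases (cd.map a) ((mcl_map_iff a).2 hR), (cl_SM ⊤).mcp hJ⟩
  have m := H4.mcl_ab_iff (mcl_top.1 hR) (comm_eq_bot.1 h3)
  by_cases h4 : S0 p (⊤ : Subgroup G) = ⊥
  · exact .inr ⟨ab, hJ, el, h4, m⟩
  have ga : ∀ K : Subgroup G, ¬ ⊤ ≤ K → ∃ A, CL ⊤ A ∧ Ab A ∧ ¬ A ≤ K := fun K hK => by
    by_contra! z
    exact hK ((J_top hJ m).ge.trans (sSup_le fun A hA => z A (cl_top.2 ((m A).2 hA).1) hA.1))
  obtain ⟨c, d⟩ := t (char_of_map fun φ => by rw [map_S0 hG, map_top_equiv]) h4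
  refine .inl ⟨_, _, out_top hJ c ((cores_cl ga cd).ne_bot top_ne_bot) d cores_char inf_le_right
    fun H _ _ τ M a b => or_iff_not_imp_left.2 fun z => cores_nml ga a ⟨⟨M, b⟩, cd.map a, map_ztop a ▸ el.map τ, ?_⟩,
      (cores_cl ga cd).mcp hJ⟩
  rwa [top_inf_eq, ← inf_eq_left.2 (le_top : S0 p ⊤ ≤ ⊤), inf_assoc, Subgroup.map_inf _ _ _ a, map_ztop a, map_S0 hG,
    ← inf_assoc, inf_eq_left.2 (S0_le _ _)] at z

theorem Phi_top : Phi (⊤ : Subgroup G) = frattini G :=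
  le_antisymm (map_le_iff_le_comap.2 (frattini_le_comap_frattini_of_surjective fun x => ⟨⟨x, trivial⟩, rfl⟩)) fun _ hx =>
    ⟨_, frattini_le_comap_frattini_of_surjective (φ := (topEquiv.symm : G ≃* _).toMonoidHom) topEquiv.symm.surjective hx,
      rfl⟩

open scoped Pointwise in
theorem exc [Nontrivial G] (hG : PGrp p (⊤ : Subgroup G)) (ab : ¬ Ab (⊤ : Subgroup G)) (hJ : 𝐉 = ⊤)
    (el : Abelem p Z((⊤ : Subgroup G))) (s0 : S0 p (⊤ : Subgroup G) = ⊥)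
    (m : ∀ X : Subgroup G, IsMinimalCentrallyLarge X ↔ X ∈ maxAbelianSubgroups G) :
    ¬ IsMulCommutative G ∧ thompsonSubgroupA G = ⊤ ∧ Abelem p (center G) ∧ Abelem p (frattini G) ∧
      (p = 2 → frattini G ≤ center G) ∧ (p = 3 → frattini G ≤ Subgroup.upperCentralSeries G 2) ∧
      (3 < p → frattini G ≤ center G ∧ Monoid.exponent G = p) ∧ ∀ A ∈ maxAbelianSubgroups G, ∀ B ∈ maxAbelianSubgroups G,
        ∀ Q : Subgroup G, #A ^ 2 = Nat.card G * #(center G) ∧ #Q * #(center Q) ≤ Nat.card G * #(center G) ∧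
          ((A ⊔ B : Subgroup G) : Set G) = (A : Set G) * (B : Set G) ∧ A ⊔ B = C(A ⊓ B) := by
  have z : ∀ {X : Subgroup G}, ⁅X, (⊤ : Subgroup G)⁆ = ⊥ → X ≤ center G := fun h =>
    (le_inf le_top (comm_eq_bot.1 h)).trans center_top'.le
  have ph : Phi (frattini G) = ⊥ → Abelem p (frattini G) := ((hG.mono le_top).Phi_eq_bot_iff hp.out).1
  have cd : Nat.card G * #(center G) = maxCentralizerProduct G := by
    rw [← cd_top.1 (cd_of_J hJ), card_top, ← center_top', top_inf_eq]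
  rw [center_top'] at el
  rw [S0, Phi_top] at s0
  refine ⟨fun h => ab inferInstance, J_top hJ m, el, ?_, fun e => ?_, fun e => ?_, fun e => ?_, fun A hA B hB Q => ?_⟩
  · split_ifs at s0
    exacts [ph (sup_eq_bot_iff.1 s0).2, ph (sup_eq_bot_iff.1 s0).2, el.mono (z (sup_eq_bot_iff.1 s0).1)]
  · rw [if_pos e] at s0; exact z (sup_eq_bot_iff.1 s0).1
  · rw [if_neg (by omega), if_pos e] at s0
    exact fun x hx => Subgroup.mem_upperCentralSeries_succ_iff.2 fun y => Subgroup.upperCentralSeries_one G ▸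
      z (sup_eq_bot_iff.1 s0).1 (commutator_mem_commutator hx (mem_top y))
  · rw [if_neg (by omega), if_neg (by omega), sup_eq_bot_iff] at s0
    exact ⟨z s0.1, ((Nat.dvd_prime hp.out).1 (Monoid.exponent_dvd_of_forall_pow_eq_one fun g =>
      Mho_eq_bot_iff.1 s0.2 g trivial)).resolve_left Monoid.one_lt_exponent.ne'⟩
  · have a := (H4.cl_iff.1 ((m A).2 hA).1).1
    have b := (H4.cl_iff.1 ((m B).2 hB).1).1
    refine ⟨?_, ?_, H4.cd_coe_sup a b, by rw [H4.cd_C_inf a b, H4.maxAb_C hA, H4.maxAb_C hB]⟩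
    · rw [cd, ← a, H4.maxAb_C hA, sq]
    · rw [cd, ← H4.maxCentral_eq, H22.card_center_eq]; exact H4.le_maxCentral Q

theorem out_phi [Nontrivial G] (hG : PGrp p (⊤ : Subgroup G)) (hJ : 𝐉 = ⊤)
    (m : ∀ X : Subgroup G, IsMinimalCentrallyLarge X ↔ X ∈ maxAbelianSubgroups G)
    (h : ¬ ∃ A ∈ maxAbelianSubgroups G, Abelem p A) : ∃ S₁ S₂ : Subgroup G, Out p S₁ S₂ := by
  obtain ⟨X, hX⟩ := exists_mco p (⊤ : Subgroup G)
  refine ⟨_, _, out_top hJ (hG.center_ne_bot top_ne_bot) (ne_bot_of_le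
    (le_sSup (s := {Y | ∃ X, MCO p ⊤ X ∧ Y = Phi X}) ⟨X, hX, rfl⟩) fun e =>
    h ⟨X, (m X).1 (mcl_top.1 hX.1), ((hG.mono le_top).Phi_eq_bot_iff hp.out).1 e⟩) ztop_char (char_of_map fun φ => by
      rw [map_SP φ.injective hG, map_top_equiv]) le_rfl fun H _ _ τ M a b => ?_⟩
  rw [map_ztop a, map_SP a hG]
  exact b.phi_cases ((cd_of_J hJ).map a)

theorem Out.nml {S₁ S₂ : Subgroup G} (h : Out p S₁ S₂) {H : Type u} [Group H] [Finite H] {τ : G →* H}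
    (a : Function.Injective τ) (b : ∃ M, PUE p ⊤ τ.range M) : (S₁.map τ).Normal ∨ (S₂.map τ).Normal :=
  b.elim fun M b => (h.good H τ M a (τ.range_eq_map ▸ b)).imp nml_of_cen fun z => nml_top_iff.1 ⟨le_top, z⟩

theorem Out.nml' {S₁ S₂ : Subgroup G} (h : Out p S₁ S₂) (H : Type u) [Group H] [Finite H] (P : Subgroup H) (e : G ≃* P)
    (b : IsPushingUpSituation p P) :
    (S₁.map (P.subtype.comp e.toMonoidHom)).Normal ∨ (S₂.map (P.subtype.comp e.toMonoidHom)).Normal :=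
  h.nml (P.subtype_injective.comp e.injective) (by
    rw [MonoidHom.range_eq_map, ← Subgroup.map_map, map_top_of_surjective _ e.surjective, map_subtype_top]
    exact setupE' b)

end Cfsg.Agent.P22

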