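import Cfsg.Agent.L1.Se0

/-! Piece `pB0` of the `3`-local characterization of `S₈`. -/

set_option autoImplicit false
set_option linter.unusedVariables false

namespace Cfsg.Agent.L1Se

open Subgroup Equiv

universe u

variable {G : Type u} [Group G] [Finite G] {ε : W →* G} {σ : G} {x : W} {φ : Perm (Fin 6) →* G}

theorem pB0_d : ∀ w : Perm (Fin 6), w * swap 0 1 = swap 0 1 * w → w * w ≠ 1 → (w * w) * (w * w) = 1 →
    (w * w) * swap 3 4 = swap 3 4 * (w * w) → w * w = swap 2 5 * swap 3 4 := by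
  decide +kernel

theorem pB0 (h : SA ε σ eB) (hy : NY ε) (h6 : S6 ε eB φ) : False := by
  have hσ : σ⁻¹ = σ := inv_eq_of_mul_eq_one_right h.ss
  have tt : ε tE * ε tE = 1 := by
    rw [← map_mul, show tE * tE = 1 by decide, map_one]
  have tc : ∀ a, φ a * ε tE = ε tE * φ a := fun a => ((h6.cen (φ a)).2 (Or.inl ⟨a, rfl⟩)).eq
  obtain ⟨u, hu⟩ : ∃ u, u = σ * ε uE * σ⁻¹ := ⟨_, rfl⟩
  have se' : σ * ε eB * σ⁻¹ = ε eE := by
    rw [← h.se, hσ]
    calc σ * (σ * ε eE * σ) * σ = (σ * σ) * ε eE * (σ * σ) := by group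
      _ = ε eE := by rw [h.ss]; group
  have key : ∀ a b : W, uE * a * uE⁻¹ = b → u * (σ * ε a * σ⁻¹) * u⁻¹ = σ * ε b * σ⁻¹ := by
    intro a b hab
    rw [← hab, hu, map_mul, map_mul, map_inv]; group
  have ue : u * ε eE * u⁻¹ = ε eE := by
    have := key eB eB (by decide); rwa [se'] at this
  have ue' : u * ε eB * u⁻¹ = ε eB := by
    have := key eE eE (by decide); rwa [h.se] at this
  have ut : u * ε tE * u⁻¹ = ε tE * ε eE := by
    have := key tE (tE * eB) (by decide)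
    rw [h.st, map_mul] at this
    rw [this, ← h.st, ← se', h.st]
    conv_rhs => rw [← h.st]
    group
  have ee : ε eE * ε eE = 1 := by
    rw [← map_mul, show eE * eE = 1 by decide, map_one]
  -- the element of order four
  obtain ⟨w, hw⟩ : ∃ w : Perm (Fin 6), w = swap 2 3 * swap 3 5 * swap 5 4 := ⟨_, rfl⟩
  have w1 : w * swap 0 1 = swap 0 1 * w := by rw [hw]; decide
  have w2 : w * w = swap 2 5 * swap 3 4 := by rw [hw]; decide
  have ge : u * φ w * u⁻¹ * ε eE = ε eE * (u * φ w * u⁻¹) := by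
    have : φ w * ε eE = ε eE * φ w := by rw [← h6.a1, ← map_mul, ← map_mul, w1]
    conv_lhs => rw [← ue]
    conv_rhs => rw [← ue]
    calc u * φ w * u⁻¹ * (u * ε eE * u⁻¹) = u * (φ w * ε eE) * u⁻¹ := by group
      _ = _ := by rw [this]; group
  have gt : u * φ w * u⁻¹ * ε tE = ε tE * (u * φ w * u⁻¹) := by
    have h1 : u * φ w * u⁻¹ * (ε tE * ε eE) = (ε tE * ε eE) * (u * φ w * u⁻¹) := by
      rw [← ut]
      calc u * φ w * u⁻¹ * (u * ε tE * u⁻¹) = u * (φ w * ε tE) * u⁻¹ := by group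
        _ = _ := by rw [tc]; group
    have h2 : u * φ w * u⁻¹ * ε tE * ε eE = ε tE * (u * φ w * u⁻¹) * ε eE := by
      rw [mul_assoc _ (ε tE), h1, mul_assoc (ε tE), ← ge, ← mul_assoc]
    exact mul_right_cancel h2
  obtain ⟨b, hb, hb1⟩ : ∃ b : Perm (Fin 6), u * φ (w * w) * u⁻¹ = φ (b * b) ∧ b * swap 0 1 = swap 0 1 * b := by
    have sq : u * φ (w * w) * u⁻¹ = (u * φ w * u⁻¹) * (u * φ w * u⁻¹) := by rw [map_mul]; group
    rcases (h6.cen _).1 gt with ⟨b, hb⟩ | ⟨b, hb⟩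
    · refine ⟨b, by rw [sq, ← hb, map_mul], h6.inj ?_⟩
      rw [map_mul, map_mul, hb, h6.a1, ge]
    · have hb' : u * φ w * u⁻¹ = ε tE * φ b := by rw [hb, ← mul_assoc, tt, one_mul]
      refine ⟨b, ?_, h6.inj ?_⟩
      · rw [sq, hb', map_mul]
        calc ε tE * φ b * (ε tE * φ b) = ε tE * (φ b * ε tE) * φ b := by group
          _ = (ε tE * ε tE) * φ b * φ b := by rw [tc]; group
          _ = _ := by rw [tt, one_mul]
      · rw [map_mul, map_mul, hb, h6.a1, mul_assoc, ge, ← mul_assoc, ← h6.a1, ← tc, mul_assoc]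
  have b2 : b * b = swap 2 5 * swap 3 4 := by
    refine pB0_d b hb1 ?_ ?_ ?_
    · intro h0
      rw [h0, map_one, w2] at hb
      have : φ (swap 2 5 * swap 3 4) = φ 1 := by
        rw [map_one]
        calc φ (swap 2 5 * swap 3 4) = u⁻¹ * (u * φ (swap 2 5 * swap 3 4) * u⁻¹) * u := by group
          _ = 1 := by rw [hb]; group
      exact absurd (h6.inj this) (by decide)
    · apply h6.inj
      rw [map_mul, ← hb, map_one]
      calc u * φ (w * w) * u⁻¹ * (u * φ (w * w) * u⁻¹) = u * φ (w * w * (w * w)) * u⁻¹ := by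
            rw [map_mul φ (w * w)]; group
        _ = 1 := by rw [w2, show (swap 2 5 * swap 3 4 * (swap 2 5 * swap 3 4) : Perm (Fin 6)) = 1 by decide, map_one]; group
    · apply h6.inj
      rw [map_mul φ (b * b), map_mul φ _ (b * b), ← hb, h6.a3]
      have : φ (w * w) * ε eB = ε eB * φ (w * w) := by
        rw [← h6.a3, ← map_mul, ← map_mul, w2]; congr 1; decide
      conv_lhs => rw [← ue']
      conv_rhs => rw [← ue']
      calc u * φ (w * w) * u⁻¹ * (u * ε eB * u⁻¹) = u * (φ (w * w) * ε eB) * u⁻¹ := by group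
        _ = _ := by rw [this]; group
  rw [w2, b2] at hb
  have cj : ∀ a c d : Perm (Fin 6), c * a * c⁻¹ = d → IsConj (ε tE * φ a) (ε tE * φ d) := by
    intro a c d hc
    refine isConj_iff.2 ⟨φ c, ?_⟩
    rw [← hc, map_mul, map_mul, map_inv, ← mul_assoc, tc]; group
  have c1 : IsConj (ε tE) (ε tE * ε eB) := by
    refine isConj_iff.2 ⟨ε uE, ?_⟩
    rw [← map_inv, ← map_mul, ← map_mul, ← map_mul]; congr 1; decide
  have c2 : IsConj (ε tE * ε eB) (ε tE * φ (swap 0 1 * swap 3 4)) := by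
    refine isConj_iff.2 ⟨u, ?_⟩
    rw [map_mul, h6.a1, h6.a3, ← mul_assoc (ε tE), ← ut]
    conv_rhs => rw [← ue']
    group
  have c3 := cj (swap 0 1 * swap 3 4) (swap 0 2 * swap 1 5) (swap 2 5 * swap 3 4) (by decide)
  have c4 : IsConj (ε tE * φ (swap 2 5 * swap 3 4)) (ε tE * φ (swap 0 1 * (swap 2 5 * swap 3 4))) := by
    refine isConj_iff.2 ⟨u, ?_⟩
    rw [map_mul φ (swap 0 1), h6.a1, ← mul_assoc (ε tE), ← ut]
    conv_rhs => rw [← hb]
    group
  have c5 := cj (swap 0 1 * (swap 2 5 * swap 3 4)) (swap 1 3) (swap 0 3 * swap 1 4 * swap 2 5) (by decide)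
  obtain ⟨g, hg⟩ := isConj_iff.1 ((((c1.trans c2).trans c3).trans c4).trans c5)
  have := hy g (by
    rw [hg, ← h6.a2, ← h6.a4, ← map_mul]
    refine Commute.mul_left (tc _).symm (Commute.map ?_ φ)
    show _ * _ = _ * _
    decide)
  rw [hg, ← h6.a2] at this
  have h3 := this.eq
  rw [← mul_assoc, tc, mul_assoc (ε tE), mul_assoc (ε tE)] at h3
  have h4 := mul_left_cancel h3
  rw [← map_mul, ← map_mul] at h4
  exact absurd (h6.inj h4) (by decide)

end Cfsg.Agent.L1Se
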