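import Cfsg.Agent.H22.SeC1
import Cfsg.Agent.H17.SeB3c2

/-! Piece `pB3c` of the `3`-local characterization of `S₈`. -/

set_option autoImplicit false

namespace Cfsg.Agent.L1Se

open Subgroup Equiv

universe u

variable {G : Type u} [Group G] [Finite G] {ε : W →* G} {σ : G} {M : Subgroup G}

theorem pB3c (t : T31.{u}) (h : SA ε σ eB) (hk : KK ε σ) (he : NE ε σ) (hM : MM M) :
    ∀ g ∈ M, ∃ a b, Perm.sign a = 1 ∧ Perm.sign b = 1 ∧ g = kk ε σ a b :=
  pB3c2 h hk he hM (pB3c1 t h hk he hM)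

end Cfsg.Agent.L1Se
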