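import Cfsg.Agent.L1.Se0

/-! First half of the piece `pB3c` of the `3`-local characterization of `S₈`. -/

set_option autoImplicit false
set_option linter.unusedVariables false
set_option linter.unusedSectionVars false

namespace Cfsg.Agent.L1Se

open Subgroup Equiv

universe u

variable {G : Type u} [Group G] [Finite G] {ε : W →* G} {σ : G} {M : Subgroup G}

def c1hP (a : Perm (Fin 5)) : Prop := a = 1 ∨ a = eB.2 ∨ a = uE.2 ∨ a = eB.2 * uE.2

instance c1hD : DecidablePred c1hP := fun a => inferInstanceAs (Decidable (_ ∨ _ ∨ _ ∨ _))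

def c1hV : Subgroup (Perm (Fin 5)) where
  carrier := {a | c1hP a}
  mul_mem' := by
    rintro a b (rfl | rfl | rfl | rfl) (rfl | rfl | rfl | rfl) <;> (show c1hP _; decide)
  one_mem' := Or.inl rfl
  inv_mem' := by
    rintro a (rfl | rfl | rfl | rfl) <;> (show c1hP _; decide)

instance c1hD2 : DecidablePred (· ∈ c1hV) := fun a => c1hD a

theorem c1h_card : Nat.card c1hV = 4 := by
  rw [Nat.card_eq_fintype_card]; decide +kernel

theorem c1h_V {a : Perm (Fin 5)} (ha : a ∈ c1hV) : Perm.sign a = 1 ∧ a * a = 1 ∧ swap 3 4 * a * (swap 3 4)⁻¹ ∈ c1hV ∧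
    (a * zF.2 = zF.2 * a → a = 1) := by
  rcases ha with rfl | rfl | rfl | rfl <;> refine ⟨by decide, by decide, by show c1hP _; decide, by decide⟩

instance c1hC : CommGroup c1hV :=
  { (inferInstance : Group c1hV) with
    mul_comm := by
      rintro ⟨a, rfl | rfl | rfl | rfl⟩ ⟨b, rfl | rfl | rfl | rfl⟩ <;> (apply Subtype.ext; decide) }

theorem c1h_d1 : ∀ b : Perm (Fin 5), Perm.sign b = 1 → b * eB.2 = eB.2 * b → c1hP b := by decide +kernel

theorem c1h_d2 : ∀ p : Perm (Fin 3), p * zE.1 = zE.1 * p → p = 1 ∨ p = zE.1 ∨ p = zE.1 * zE.1 := by decide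

theorem c1h_alt {X : Type*} [Group X] (j : Perm (Fin 5) →* X) (H : Subgroup X)
    (hj : ∀ b, Perm.sign b = 1 → j b ^ 2 ∈ H) (a : Perm (Fin 5)) (ha : Perm.sign a = 1) : j a ∈ H := by
  have : alternatingGroup (Fin 5) ≤ H.comap j := by
    rw [← Perm.closure_three_cycles_eq_alternating, closure_le]
    intro c hc
    have h3 : c ^ 3 = 1 := by rw [← Perm.IsThreeCycle.orderOf hc]; exact pow_orderOf_eq_one c
    have h4 : c = (c ^ 2) ^ 2 := by
      calc c = c ^ 3 * c := by rw [h3, one_mul]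
        _ = _ := by group
    show j c ∈ H
    rw [h4, map_pow]
    exact hj _ (by rw [map_pow, Perm.IsThreeCycle.sign hc, one_pow])
  exact this ha

theorem c1h_psl : ¬ 5 ∣ Nat.card (Matrix.ProjectiveSpecialLinearGroup (Fin 2) (ZMod 7)) := by
  haveI : Fact (Nat.Prime 7) := ⟨by norm_num⟩
  intro h5
  have h1 : Nat.card (Matrix.ProjectiveSpecialLinearGroup (Fin 2) (ZMod 7)) ∣
      Nat.card (Matrix.SpecialLinearGroup (Fin 2) (ZMod 7)) := card_quotient_dvd_card _
  have h2 : Nat.card (Matrix.SpecialLinearGroup (Fin 2) (ZMod 7)) ∣ Nat.card (GL (Fin 2) (ZMod 7)) :=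
    card_dvd_of_injective _ Matrix.SpecialLinearGroup.toGL_injective
  rw [Matrix.card_GL_field, ZMod.card] at h2
  have := (h5.trans h1).trans h2
  revert this
  simp [Fin.prod_univ_two]

theorem pB3c1 (t : T31.{u}) (h : SA ε σ eB) (hk : KK ε σ) (he : NE ε σ) (hM : MM M) :
    ∀ g ∈ M, Commute g (ε eE) → ∃ a b, Perm.sign a = 1 ∧ Perm.sign b = 1 ∧ g = kk ε σ a b := by
  haveI := hM.nm
  haveI : Fact (Nat.Prime 2) := ⟨Nat.prime_two⟩
  have hσ : σ⁻¹ = σ := inv_eq_of_mul_eq_one_right h.ss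
  let j1 : Perm (Fin 5) →* G := ε.comp (MonoidHom.inr _ _)
  let j2 : Perm (Fin 5) →* G := (MulAut.conj σ).toMonoidHom.comp j1
  have j1d : ∀ a, j1 a = ε (1, a) := fun a => rfl
  have j2d : ∀ a, j2 a = σ * j1 a * σ⁻¹ := fun a => rfl
  have j2s : ∀ a, σ * j2 a * σ⁻¹ = j1 a := fun a => by
    rw [j2d, hσ]
    calc σ * (σ * j1 a * σ) * σ = (σ * σ) * j1 a * (σ * σ) := by group
      _ = _ := by rw [h.ss]; group
  have i1 : Function.Injective j1 := fun a b hab => (Prod.ext_iff.1 (h.inj hab)).2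
  have i2 : Function.Injective j2 := fun a b hab => i1 (by rw [← j2s, ← j2s, hab])
  have cm : ∀ a b, Perm.sign a = 1 → Perm.sign b = 1 → Commute (j1 a) (j2 b) := hk.cm
  have e2 : j2 eB.2 = ε eE := by
    have : j1 eB.2 = σ * ε eE * σ⁻¹ := h.se.symm
    rw [j2d, this, hσ]
    calc σ * (σ * ε eE * σ) * σ = (σ * σ) * ε eE * (σ * σ) := by group
      _ = _ := by rw [h.ss]; group
  have t1 : j1 (swap 3 4) = ε tE := rfl
  have t2 : j2 (swap 3 4) = ε tE := h.st
  have m1 : ∀ a, Perm.sign a = 1 → j1 a ∈ M := c1h_alt j1 M fun b _ => hM.sq _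
  have m2 : ∀ a, Perm.sign a = 1 → j2 a ∈ M := c1h_alt j2 M fun b _ => hM.sq _
  have ce1 : ∀ a, Commute (j1 a) (ε eE) := fun a => Commute.map (f := ε) (Prod.ext (by simp [eE]) (by simp [eE]))
  let ψ : c1hV × c1hV →* G := (j1.comp c1hV.subtype).noncommCoprod (j2.comp c1hV.subtype)
    fun a b => cm _ _ (c1h_V a.2).1 (c1h_V b.2).1
  have ψd : ∀ a b : c1hV, ψ (a, b) = j1 a * j2 b := fun a b => rfl
  have iψ : Function.Injective ψ := by
    rw [injective_iff_map_eq_one]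
    rintro ⟨a, b⟩ hab
    rw [ψd] at hab
    have ha : j1 a = (j2 b)⁻¹ := eq_inv_of_mul_eq_one_left hab
    have : a.1 = 1 := (c1h_V a.2).2.2.2 (i1 (by
      rw [map_mul, map_mul, ha]
      exact ((cm zF.2 b (by decide) (c1h_V b.2).1).inv_right).symm.eq))
    rw [this, map_one, one_mul] at hab
    have hb : b.1 = 1 := i2 (by rw [hab, map_one])
    exact Prod.ext (Subtype.ext this) (Subtype.ext hb)
  have eE' : ψ.range = EE ε σ := by
    apply le_antisymm
    · rintro _ ⟨⟨a, b⟩, rfl⟩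
      rw [ψd]
      have a1 : j1 eB.2 ∈ EE ε σ := subset_closure (Or.inl rfl)
      have a2 : j1 uE.2 ∈ EE ε σ := subset_closure (Or.inr (Or.inl rfl))
      have a3 : j2 eB.2 ∈ EE ε σ := subset_closure (Or.inr (Or.inr (Or.inl e2)))
      have a4 : j2 uE.2 ∈ EE ε σ := subset_closure (Or.inr (Or.inr (Or.inr rfl)))
      refine mul_mem ?_ ?_
      · obtain ⟨a, rfl | rfl | rfl | rfl⟩ := a
        exacts [by simp, a1, a2, by rw [map_mul]; exact mul_mem a1 a2]
      · obtain ⟨b, rfl | rfl | rfl | rfl⟩ := b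
        exacts [by simp, a3, a4, by rw [map_mul]; exact mul_mem a3 a4]
    · rw [EE, closure_le]
      rintro _ (rfl | rfl | rfl | rfl)
      · exact ⟨(⟨eB.2, Or.inr (Or.inl rfl)⟩, 1), by rw [ψd]; simp; rfl⟩
      · exact ⟨(⟨uE.2, Or.inr (Or.inr (Or.inl rfl))⟩, 1), by rw [ψd]; simp; rfl⟩
      · exact ⟨(1, ⟨eB.2, Or.inr (Or.inl rfl)⟩), by rw [ψd]; simp [e2]⟩
      · exact ⟨(1, ⟨uE.2, Or.inr (Or.inr (Or.inl rfl))⟩), by rw [ψd]; simp; rfl⟩
  have cE : Nat.card ψ.range = 16 := by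
    rw [← Nat.card_congr (MonoidHom.ofInjective iψ).toEquiv, Nat.card_prod, c1h_card]
  have pE : IsPGroup 2 ψ.range := IsPGroup.of_card (n := 4) cE
  have EM : ψ.range ≤ M := by
    rintro _ ⟨⟨a, b⟩, rfl⟩
    exact mul_mem (m1 _ (c1h_V a.2).1) (m2 _ (c1h_V b.2).1)
  have Ec : ∀ x ∈ ψ.range, ∀ y ∈ ψ.range, x * y = y * x := by
    rintro _ ⟨a, rfl⟩ _ ⟨b, rfl⟩
    rw [← map_mul, ← map_mul, mul_comm]
  have eE0 : ε eE ∈ ψ.range := by rw [eE']; exact subset_closure (Or.inr (Or.inr (Or.inl rfl)))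
  have uE0 : ε uE ∈ ψ.range := by rw [eE']; exact subset_closure (Or.inr (Or.inl rfl))
  -- involutions normalizing `E`
  have out : ∀ s, s * s = 1 → s ∈ normalizer (ψ.range : Set G) → s ∈ M → s ∈ ψ.range := by
    intro s hs hn hm
    have ps : IsPGroup 2 (zpowers s) := IsPGroup.of_card_dvd_pow (n := 1) (by
      rw [Nat.card_zpowers, pow_one]; exact orderOf_dvd_of_pow_eq_one (by rw [pow_two, hs]))
    have pH := pE.to_sup_of_normal_left' ps (zpowers_le.2 hn)
    obtain ⟨k, hk⟩ := IsPGroup.iff_card.1 pH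
    have dv : Nat.card (ψ.range ⊔ zpowers s : Subgroup G) ∣ Nat.card M :=
      card_dvd_of_le (sup_le EM (zpowers_le.2 hm))
    have k4 : k ≤ 4 := by
      by_contra hk4
      exact hM.n32 ((pow_dvd_pow 2 (show 5 ≤ k by omega)).trans (hk ▸ dv))
    have := eq_of_le_of_card_ge (le_sup_left : ψ.range ≤ ψ.range ⊔ zpowers s)
      (by rw [hk, cE]; exact Nat.pow_le_pow_right (by norm_num) k4)
    rw [this]
    exact mem_sup_right (mem_zpowers s)
  have nσ : σ ∈ normalizer (ψ.range : Set G) := mem_normalizer_fintype (by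
    rintro _ ⟨⟨a, b⟩, rfl⟩
    refine ⟨(b, a), ?_⟩
    rw [ψd, ψd, (cm _ _ (c1h_V b.2).1 (c1h_V a.2).1).eq, ← j2s b, j2d a]; group)
  have nτ : ε tE ∈ normalizer (ψ.range : Set G) := mem_normalizer_fintype (by
    rintro _ ⟨⟨a, b⟩, rfl⟩
    refine ⟨(⟨_, (c1h_V a.2).2.2.1⟩, ⟨_, (c1h_V b.2).2.2.1⟩), ?_⟩
    rw [ψd, ψd]
    simp only [map_mul, map_inv, t1, t2]
    group)
  have tt : ε tE * ε tE = 1 := by
    rw [← map_mul, show tE * tE = 1 by decide, map_one]
  have τM : ε tE ∉ M := fun hm => by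
    have := Ec _ (out _ tt nτ hm) _ uE0
    rw [← map_mul, ← map_mul] at this
    exact absurd (h.inj this) (by decide)
  have σM : σ ∉ M := fun hm => by
    have := Ec _ (out _ h.ss nσ hm) _ eE0
    have h2 := h.se
    rw [this, mul_inv_cancel_right] at h2
    exact absurd (h.inj h2) (by decide)
  have ts : σ * ε tE = ε tE * σ := by
    conv_rhs => rw [← h.st]
    group
  have τσM : ε tE * σ ∉ M := fun hm => by
    have := Ec _ (out _ (by
      calc ε tE * σ * (ε tE * σ) = ε tE * (σ * ε tE) * σ := by group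
        _ = (ε tE * ε tE) * (σ * σ) := by rw [ts]; group
        _ = 1 := by rw [tt, h.ss, one_mul]) (mul_mem nτ nσ) hm) _ eE0
    have h2 : ε tE * (σ * ε eE * σ⁻¹) = ε eE * ε tE := by
      calc ε tE * (σ * ε eE * σ⁻¹) = (ε tE * σ * ε eE) * σ⁻¹ := by group
        _ = _ := by rw [this]; group
    rw [h.se, ← map_mul, ← map_mul] at h2
    exact absurd (h.inj h2) (by decide)
  -- the normalizer of `E` in `C_M(e)` centralizes `U₂`
  have nz : ∀ n ∈ M, Commute n (ε eE) → n ∈ normalizer (ψ.range : Set G) → ∀ w ∈ c1hV, Commute n (j2 w) := by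
    intro n hn hc hN w hw
    rw [eE'] at hN
    obtain ⟨a, b, ha, hb, hab⟩ := he n hN
    have km : kk ε σ a b ∈ M := mul_mem (m1 a ha) (m2 b hb)
    have hab : n = j1 a * j2 b := by
      rcases hab with hab | hab | hab | hab
      · exact hab
      · exact absurd ((mul_mem_cancel_left km).1 (hab ▸ hn)) τM
      · exact absurd ((mul_mem_cancel_left km).1 (hab ▸ hn)) σM
      · exact absurd ((mul_mem_cancel_left km).1 (by rw [← mul_assoc]; exact hab ▸ hn)) τσM
    have : Commute (j2 b) (ε eE) := by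
      have h1 := (ce1 a).inv_left.mul_left hc
      rwa [hab, inv_mul_cancel_left] at h1
    have hb' : b ∈ c1hV := c1h_d1 b hb (i2 (by rw [map_mul, map_mul, e2]; exact this.eq))
    rw [hab]
    refine (cm a w ha (c1h_V hw).1).mul_left (Commute.map ?_ j2)
    exact congrArg Subtype.val (mul_comm (⟨b, hb'⟩ : c1hV) ⟨w, hw⟩)
  -- the transfer
  let C : Subgroup G := M ⊓ centralizer {ε eE}
  have mC : ∀ g, g ∈ C ↔ g ∈ M ∧ Commute g (ε eE) := fun g => by
    simp only [C, mem_inf, mem_centralizer_singleton_iff]; rfl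
  have EC : ψ.range ≤ C := fun x hx => (mC x).2 ⟨EM hx, Ec _ hx _ eE0⟩
  have cE' : Nat.card (ψ.range.subgroupOf C) = 16 := by
    rw [Nat.card_congr (subgroupOfEquivOfLe EC).toEquiv, cE]
  have n32 : ¬ 32 ∣ Nat.card C := fun h32 => hM.n32 (h32.trans (card_dvd_of_le inf_le_left))
  have ix : ¬ 2 ∣ (ψ.range.subgroupOf C).index := fun ⟨k, hk⟩ => n32 ⟨k, by
    rw [← (ψ.range.subgroupOf C).card_mul_index, cE', hk]; ring⟩
  let P : Sylow 2 C := (IsPGroup.of_card (n := 4) cE').toSylow ix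
  haveI : IsMulCommutative P := ⟨⟨fun a b => Subtype.ext (Subtype.ext (Ec _ a.2 _ b.2))⟩⟩
  let ϕ : ψ.range.subgroupOf C →* c1hV := (MonoidHom.snd _ _).comp
    ((MonoidHom.ofInjective iψ).symm.toMonoidHom.comp (subgroupOfEquivOfLe EC).toMonoidHom)
  have ϕd : ∀ (x : ψ.range.subgroupOf C) (w : c1hV), x.1.1 = j2 w → ϕ x = w := by
    intro x w hx
    have : (subgroupOfEquivOfLe EC) x = MonoidHom.ofInjective iψ (1, w) := Subtype.ext (by
      show x.1.1 = ψ (1, w)
      rw [hx, ψd]; simp)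
    show ((MonoidHom.ofInjective iψ).symm (subgroupOfEquivOfLe EC x)).2 = w
    rw [this, MulEquiv.symm_apply_apply]
  have jE : ∀ w : c1hV, j2 w ∈ ψ.range := fun w => ⟨(1, w), by rw [ψd]; simp⟩
  let T : C →* c1hV := MonoidHom.transfer ϕ
  have Td : ∀ w : c1hV, T ⟨j2 w, EC (jE w)⟩ = w := by
    intro w
    have := MonoidHom.transfer_eq_pow ϕ (⟨j2 w, EC (jE w)⟩ : C) (by
      intro k g0 hg
      obtain ⟨n, hn, hn2⟩ := P.conj_eq_normalizer_conj_of_mem (⟨j2 w, EC (jE w)⟩ ^ k) g0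
        (pow_mem (show (⟨j2 w, EC (jE w)⟩ : C) ∈ ψ.range.subgroupOf C from jE w) k) hg
      have hn' : n.1 ∈ normalizer (ψ.range : Set G) := mem_normalizer_fintype (fun y hy =>
        (mem_normalizer_iff.1 hn ⟨y, EC hy⟩).1 hy)
      have hc := (nz n.1 ((mC _).1 n.2).1 ((mC _).1 n.2).2 hn' w w.2).pow_right k
      rw [hn2]
      apply Subtype.ext
      show n.1⁻¹ * j2 w ^ k * n.1 = j2 w ^ k
      rw [mul_assoc, ← hc.eq, inv_mul_cancel_left])
    refine this.trans (ϕd _ _ ?_)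
    show j2 w ^ _ = j2 w
    obtain ⟨k, hk⟩ := Nat.odd_iff.2 (Nat.two_dvd_ne_zero.1 ix)
    rw [hk, pow_succ, pow_mul, pow_two, ← map_mul, (c1h_V w.2).2.1, map_one, one_pow, one_mul]
  let L : Subgroup G := T.ker.map C.subtype
  have cL : Nat.card C = Nat.card L * 4 := by
    rw [card_map_of_injective C.subtype_injective, ← T.ker.card_mul_index, index_ker,
      MonoidHom.range_eq_top.2 (fun w => ⟨_, Td w⟩), card_top, c1h_card]
  have LC : L ≤ C := map_subtype_le _
  have l1 : ∀ a, Perm.sign a = 1 → j1 a ∈ L := c1h_alt j1 L fun b hb =>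
    ⟨⟨j1 b, (mC _).2 ⟨m1 b hb, ce1 b⟩⟩ ^ 2, by
      show T _ = 1
      rw [map_pow, pow_two]
      exact Subtype.ext (c1h_V (T _).2).2.1, rfl⟩
  have zL : ε zF ∈ L := l1 zF.2 (by decide)
  have oz : orderOf (⟨ε zF, zL⟩ : L) = 3 := by
    haveI : Fact (Nat.Prime 3) := ⟨Nat.prime_three⟩
    refine orderOf_eq_prime (Subtype.ext ?_) fun h0 => ?_
    · show ε zF ^ 3 = 1
      rw [← map_pow, show zF ^ 3 = 1 by decide, map_one]
    · have : ε zF = ε 1 := by rw [map_one]; exact congrArg Subtype.val h0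
      exact absurd (h.inj this) (by decide)
  have cX : centralizer (zpowers (⟨ε zF, zL⟩ : L) : Set L) = zpowers (⟨ε zF, zL⟩ : L) := by
    apply le_antisymm
    · intro g hg
      have hc : ε zF * g.1 = g.1 * ε zF := congrArg Subtype.val (hg _ (mem_zpowers _))
      have hc2 : σ⁻¹ * g.1 * σ * ε zE = ε zE * (σ⁻¹ * g.1 * σ) := by
        rw [← h.sz] at hc
        calc σ⁻¹ * g.1 * σ * ε zE = σ⁻¹ * (g.1 * (σ * ε zE * σ⁻¹)) * σ := by group
          _ = _ := by rw [← hc]; group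
      obtain ⟨⟨p, q⟩, hpq⟩ : σ⁻¹ * g.1 * σ ∈ ε.range := (h.rng _).2 (mem_normalizer_fintype (by
        rintro _ ⟨k, rfl⟩
        refine ⟨k, ?_⟩
        have := (Commute.zpow_right hc2 k).eq
        show ε zE ^ k = _
        rw [this, mul_inv_cancel_right]))
      rw [← hpq, ← map_mul, ← map_mul] at hc2
      have hp := c1h_d2 p (congrArg Prod.fst (h.inj hc2))
      have hg1 : g.1 = σ * ε (p, 1) * σ⁻¹ * j2 q := by
        rw [j2d, j1d]
        calc g.1 = σ * (σ⁻¹ * g.1 * σ) * σ⁻¹ := by group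
          _ = σ * (ε (p, 1) * ε (1, q)) * σ⁻¹ := by rw [← hpq, ← map_mul]; simp
          _ = _ := by group
      obtain ⟨i, hi⟩ : ∃ i : ℕ, σ * ε (p, 1) * σ⁻¹ = ε zF ^ i := by
        rcases hp with rfl | rfl | rfl
        · exact ⟨0, by rw [show ((1, 1) : W) = 1 from rfl, map_one]; group⟩
        · exact ⟨1, by rw [pow_one]; exact h.sz⟩
        · exact ⟨2, by
            rw [show ((zE.1 * zE.1, 1) : W) = zE * zE by decide, map_mul, ← h.sz, pow_two]; group⟩
      rw [hi] at hg1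
      have qL : j2 q ∈ L := (mul_mem_cancel_left (pow_mem zL i)).1 (hg1 ▸ g.2)
      have qs : Perm.sign q = 1 := by
        rcases Int.units_eq_one_or (Perm.sign q) with hq | hq
        · exact hq
        · exfalso
          have := m2 (q * swap 3 4) (by rw [map_mul, hq, Perm.sign_swap (by decide)]; simp)
          rw [map_mul, t2] at this
          exact τM ((mul_mem_cancel_left ((mC _).1 (LC qL)).1).1 this)
      have qV : q ∈ c1hV := c1h_d1 q qs (i2 (by rw [map_mul, map_mul, e2]; exact ((mC _).1 (LC qL)).2.eq))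
      obtain ⟨y, hy, hy2⟩ := qL
      have : y = ⟨j2 (⟨q, qV⟩ : c1hV), EC (jE _)⟩ := Subtype.ext hy2
      have hq1 : (⟨q, qV⟩ : c1hV) = 1 := by rw [← Td ⟨q, qV⟩, ← this]; exact hy
      have hq2 : q = 1 := congrArg Subtype.val hq1
      rw [hq2, map_one, mul_one] at hg1
      exact ⟨i, Subtype.ext (by simp [hg1])⟩
    · exact (zpowers _).le_centralizer
  have KL : (alternatingGroup (Fin 5)).map j1 ≤ L := by
    rintro _ ⟨a, ha, rfl⟩
    exact l1 a ha
  have cK : Nat.card ((alternatingGroup (Fin 5)).map j1) = 60 := by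
    rw [card_map_of_injective i1, nat_card_alternatingGroup]; simp; rfl
  have dL : 60 ∣ Nat.card L := cK ▸ card_dvd_of_le KL
  have L60 : Nat.card L = 60 := by
    rcases t L _ (by rw [Nat.card_zpowers, oz]) cX with ⟨N, hN, -, h3, h4⟩ | ⟨N, hN, -, h2, ⟨e⟩⟩ | ⟨⟨e⟩⟩
    · exfalso
      have q6 : Nat.card (L ⧸ N) ∣ 6 := by
        rcases h4 with h4 | ⟨⟨e⟩⟩
        · rw [h4]; norm_num
        · rw [Nat.card_congr e.toEquiv, Nat.card_perm]; simp; rfl
      have five : ∀ (a : Perm (Fin 5)) (ha : Perm.sign a = 1), a ^ 5 = 1 → (⟨j1 a, l1 a ha⟩ : L) ∈ N := by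
        intro a ha h5
        rw [← QuotientGroup.eq_one_iff]
        have a5 : ((⟨j1 a, l1 a ha⟩ : L) : L ⧸ N) ^ 5 = 1 := by
          rw [← QuotientGroup.mk_pow, show (⟨j1 a, l1 a ha⟩ : L) ^ 5 = 1 from Subtype.ext (by
            show j1 a ^ 5 = 1
            rw [← map_pow, h5, map_one])]; rfl
        have a6 : ((⟨j1 a, l1 a ha⟩ : L) : L ⧸ N) ^ 6 = 1 :=
          orderOf_dvd_iff_pow_eq_one.1 ((_root_.orderOf_dvd_natCard _).trans q6)
        rw [pow_succ, a5, one_mul] at a6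
        exact a6
      obtain ⟨a, b, ha, hb, a5, b5, hab⟩ : ∃ a b : Perm (Fin 5), Perm.sign a = 1 ∧ Perm.sign b = 1 ∧ a ^ 5 = 1 ∧
          b ^ 5 = 1 ∧ a * b = zF.2 := by
        have : ∃ a : Perm (Fin 5), Perm.sign a = 1 ∧ Perm.sign (a⁻¹ * zF.2) = 1 ∧ a ^ 5 = 1 ∧
          (a⁻¹ * zF.2) ^ 5 = 1 := by decide +kernel
        obtain ⟨a, h1, h2, h3, h4⟩ := this
        exact ⟨a, _, h1, h2, h3, h4, by group⟩
      have zN : (⟨ε zF, zL⟩ : L) ∈ N := by
        have := mul_mem (five a ha a5) (five b hb b5)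
        convert this using 1
        apply Subtype.ext
        show j1 zF.2 = j1 a * j1 b
        rw [← map_mul, hab]
      have := N.orderOf_dvd_natCard zN
      rw [oz] at this
      exact absurd (Nat.Coprime.eq_one_of_dvd h3.symm this) (by norm_num)
    · have cq : Nat.card (L ⧸ N) = 60 := by
        rw [Nat.card_congr e.toEquiv, nat_card_alternatingGroup]; simp; rfl
      have hL := card_eq_card_quotient_mul_card_subgroup N
      rw [cq] at hL
      by_cases hb : N = ⊥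
      · rw [hL, hb]; simp
      · exfalso
        obtain ⟨n, hn, hn1⟩ := (N.bot_or_exists_ne_one).resolve_left hb
        have := N.orderOf_dvd_natCard hn
        rw [orderOf_eq_prime (h2 n hn) hn1] at this
        obtain ⟨k, hk⟩ := this
        exact n32 ⟨15 * k, by rw [cL, hL, hk]; ring⟩
    · exact absurd ((show 5 ∣ 60 by norm_num).trans (Nat.card_congr e.toEquiv ▸ dL)) c1h_psl
  have LK := eq_of_le_of_card_ge KL (by rw [L60, cK])
  intro g hg hc
  have gC : g ∈ C := (mC g).2 ⟨hg, hc⟩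
  have : g * (j2 (T ⟨g, gC⟩))⁻¹ ∈ L := ⟨⟨g, gC⟩ * (⟨j2 (T ⟨g, gC⟩), EC (jE _)⟩)⁻¹, by
    show T _ = 1
    rw [map_mul, map_inv, Td, mul_inv_cancel], rfl⟩
  rw [← LK] at this
  obtain ⟨a, ha, hab⟩ := this
  refine ⟨a, T ⟨g, gC⟩, ha, (c1h_V (T ⟨g, gC⟩).2).1, ?_⟩
  show g = j1 a * j2 _
  rw [hab, inv_mul_cancel_right]

end Cfsg.Agent.L1Se
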