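import Mathlib
import Cfsg.Agent.H3.QD

/-! Semidihedral Sylow `2`-subgroups, cyclic odd Sylow subgroups: the involution centraliser is almost a Hall subgroup. -/

set_option autoImplicit false

namespace Cfsg.Agent.H22.SwF

open Cfsg Subgroup Cfsg.Agent.FT

universe u

variable {G : Type u} [Group G] [Finite G] {S : Subgroup G} {a b : G} {m r : ℕ}

/-- a cyclic Sylow `r`-subgroup normalises a nontrivial elementary abelian `2`-subgroup -/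
theorem exists_norm (hr : r.Prime) (h2 : r ≠ 2) (hodd : ∀ P : Subgroup G, Syl r P ⊤ → Cyc P) {t : G}
    (ht : orderOf t = 2) (h1 : r ∣ #C[t]) :
    ∃ R Z : Subgroup G, Syl r R ⊤ ∧ Abelem 2 Z ∧ Z ≠ ⊥ ∧ R ≤ N(Z) := by
  haveI := Fact.mk hr
  obtain ⟨x, hx⟩ := exists_prime_orderOf_dvd_card' (G := C[t]) r h1
  have hx' : orderOf (x : G) = r := by rw [orderOf_coe, hx]
  have hxp : PiElt {r} (x : G) := (piElt_of_orderOf_prime hr hx').2 rfl
  obtain ⟨R, hR, hxR⟩ := hxp.zpowers.exists_syl le_top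
  have hc := hodd R hR
  have hxR' : (x : G) ∈ R := hxR (mem_zpowers _)
  have hRC : R ≤ C[(x : G)] := hc.ab.le_cen1 hxR'
  have hR' : Syl r R C[(x : G)] := hR.subl hRC le_top
  have hn : NPC r C[(x : G)] := by
    refine npc_of_syl_inf_der hR' ((cyclic_Sylow_tiVsub_der1 hR' hc).resolve_right fun k => ?_)
    have := (abelian_Sylow_dp hR' hc.ab).inf
    rw [inf_eq_left.2 k] at this
    have h3 : (x : G) ∈ (⊥ : Subgroup G) := this ▸ ⟨hxR', hxR', le_cen1.1 inf_le_left⟩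
    rw [mem_bot.1 h3, orderOf_one] at hx'
    exact hr.one_lt.ne hx'
  have htK : t ∈ O[{r}ᶜ](C[(x : G)]) := hn.hall.mem_pcore (mem_cen1.2 (mem_cen1.1 x.2).symm)
    ((piElt_of_orderOf_prime Nat.prime_two ht).2 (Ne.symm h2))
  obtain ⟨T, hT, hRT⟩ := coprime_Sylow_exists 2 (hRC.trans (pcore_nrm {r}ᶜ _)) ((pcore_pi _ _).cop' hR.pi)
    (Or.inr hR.pi.sol)
  have hT1 : T ≠ ⊥ := fun e => (hT.syl_eq_bot_iff Nat.prime_two).1 e (ht ▸ orderOf_dvd_natCard _ htK)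
  exact ⟨R, Ω[2](Z(T)), hR, abelem_Ohm_center 2 T, hT.pi.Ohm_center_ne_bot hT1, norms_Ohm 2 (norms_center hRT)⟩

theorem klein_or (h : H3.MC S a b m) {Z : Subgroup G} (hZ : Abelem 2 Z) (hS : Z ≤ S) :
    IsKleinFour Z ∨ ∀ u ∈ Z, ∀ v ∈ Z, u ≠ 1 → v ≠ 1 → u = v := by
  by_cases ht : a ^ 2 ^ (m - 1) ∈ Z
  · by_cases hc : ∃ c ∈ Z, c ∉ ⟪a⟫
    · obtain ⟨c, h1, h2⟩ := hc
      have k := h.out (hS h1) h2
      have e : Z = ⟪a ^ 2 ^ (m - 1)⟫ ⊔ ⟪c⟫ := le_antisymm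
        (k.cen1_b ▸ le_inf hS (hZ.ab.le_cen1 h1)) (sup_le (zpowers_le.2 ht) (zpowers_le.2 h1))
      exact Or.inl (e ▸ k.klein (hZ.pow h1))
    · push Not at hc
      exact Or.inr fun u hu v hv h1 h2 => (h.eq_z (hc u hu) (hZ.pow hu) h1).trans (h.eq_z (hc v hv) (hZ.pow hv) h2).symm
  · refine Or.inr fun u hu v hv h1 h2 => ?_
    have k : ∀ w ∈ Z, w ≠ 1 → w ∉ ⟪a⟫ := fun w hw h3 h4 => ht (h.eq_z h4 (hZ.pow hw) h3 ▸ hw)
    have := k _ (Z.mul_mem hu (Z.inv_mem hv))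
    by_contra e
    exact this (fun e' => e (mul_inv_eq_one.1 e')) (h.mul_inv_mem (hS hu) (hS hv) (k u hu h1) (k v hv h2))

theorem hall {G : Type u} [Group G] [Finite G]
    (hodd : ∀ p, p.Prime → p ≠ 2 → ∀ P : Sylow p G, IsCyclic P) {S : Sylow 2 G} {a b : G} {m : ℕ}
    (h : H3.MCS (S : Subgroup G) a b m) (hres : (S : Subgroup G) ≤ pResidual 2 G) {r : ℕ} (hr : r.Prime) (h2 : r ≠ 2)
    (h1 : r ∣ Nat.card (Subgroup.centralizer ({a ^ 2 ^ (m - 1)} : Set G)))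
    (hN : r ∣ (Subgroup.centralizer ({a ^ 2 ^ (m - 1)} : Set G)).index) :
    r = 3 ∧ ¬ 9 ∣ (Subgroup.centralizer ({a ^ 2 ^ (m - 1)} : Set G)).index ∧
      ¬ 3 ∣ (Subgroup.centralizer ({b} : Set G)).relIndex (Subgroup.centralizer ({a ^ 2 ^ (m - 1)} : Set G)) := by
  have hm := h.toMC
  have hS := syl_top Nat.prime_two S
  set t := a ^ 2 ^ (m - 1) with ht
  obtain ⟨R0, Z0, hR0, hZ0, hne0, hn0⟩ := exists_norm hr h2 (fun P hP => by
    obtain ⟨T, rfl⟩ := (syl_top_iff hr).1 hP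
    exact hodd r hr h2 T) hm.ord_z h1
  obtain ⟨g, -, hg⟩ := hS.syl_Jsub (hZ0.pGrp Nat.prime_two) le_top
  obtain ⟨R, Z, hR, hZ, hne, hn, hZS⟩ : ∃ R Z : Subgroup G, Syl r R ⊤ ∧ Abelem 2 Z ∧ Z ≠ ⊥ ∧ R ≤ N(Z) ∧ Z ≤ S :=
    ⟨cj g R0, cj g Z0, hR0.cj_mem trivial, hZ0.cj g, fun e => hne0 (by simpa using congrArg (cj g⁻¹) e),
      cj_nrm g Z0 ▸ cj_mono g hn0, hg⟩
  have hG : ∀ n, r ∣ n → ¬ #R * n ∣ Nat.card G := fun n hn' k => by
    have h3 := card_mul_relIndex hR.le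
    rw [card_top] at h3
    rw [← h3] at k
    exact hR.not_dvd hr (hn'.trans (Nat.dvd_of_mul_dvd_mul_left Nat.card_pos k))
  have hH := C[t].card_mul_index
  rcases klein_or hm hZ hZS with h4 | h4
  · obtain ⟨y, -, hy⟩ := h.four_cj hZS h4
    have e1 : C(⟪t⟫ ⊔ ⟪b⟫) = C[b] ⊓ C[t] := by
      ext w
      rw [mem_inf]
      constructor
      · intro hw
        exact ⟨mem_cen1.2 (mem_cen.1 hw _ (mem_sup_right (mem_zpowers b))).symm,
          mem_cen1.2 (mem_cen.1 hw _ (mem_sup_left (mem_zpowers t))).symm⟩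
      · rintro ⟨k1, k2⟩
        have : ⟪t⟫ ⊔ ⟪b⟫ ≤ C[w] := sup_le (zpowers_le.2 (mem_cen1.2 (mem_cen1.1 k2).symm))
          (zpowers_le.2 (mem_cen1.2 (mem_cen1.1 k1).symm))
        exact le_cen1.1 this
    have e2 : #(C(Z) ⊓ R) ∣ #(C[b] ⊓ C[t]) := by
      rw [← e1, ← FT.card_cj y C(⟪t⟫ ⊔ ⟪b⟫), cj_cen, ← hy]
      exact card_dvd_of_le inf_le_left
    have e3 := card_inf_mul_relIndex C[b] C[t]
    have e4 := card_inf_mul_relIndex C(Z) R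
    have e5 : C(Z).relIndex R ∣ 6 := by
      refine (relIndex_dvd_of_norm hn (norms_cent le_rfl)).trans ?_
      rcases hm.idx_four hS hZS h4 with ⟨k, -⟩ | ⟨k, -⟩ <;> rw [k]
      norm_num
    obtain ⟨d, hd⟩ := e2
    have e6 : ∀ n, n ∣ C[b].relIndex C[t] * C[t].index → #(C(Z) ⊓ R) * n ∣ Nat.card G := fun n k => by
      rw [← hH, ← e3, hd, mul_assoc, mul_assoc]
      exact Nat.mul_dvd_mul_left _ (k.mul_left d)
    obtain ⟨e, he⟩ := hR.pi.card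
    obtain ⟨j, -, hj⟩ := (Nat.dvd_prime_pow hr).1 (he ▸ relIndex_dvd C(Z) R)
    rcases j with _ | j
    · rw [hj, pow_zero, mul_one] at e4
      exact (hG r dvd_rfl (e4 ▸ e6 r (hN.mul_left _))).elim
    have e7 : r ∣ 2 * 3 := (dvd_pow_self r j.succ_ne_zero).trans (hj ▸ e5)
    obtain rfl : r = 3 := by
      rcases (Nat.Prime.dvd_mul hr).1 e7 with k | k
      · exact (h2 ((Nat.prime_dvd_prime_iff_eq hr Nat.prime_two).1 k)).elim
      · exact (Nat.prime_dvd_prime_iff_eq hr Nat.prime_three).1 k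
    obtain rfl : j = 0 := by
      rcases j with _ | j
      · rfl
      · have : 3 ^ 2 ∣ 6 := (pow_dvd_pow 3 (by omega)).trans (hj ▸ e5)
        norm_num at this
    have e8 : ¬ 9 ∣ C[b].relIndex C[t] * C[t].index := fun k => hG 3 dvd_rfl (by
      rw [← e4, hj, mul_assoc]; exact e6 9 k)
    exact ⟨rfl, fun k => e8 (k.mul_left _), fun k => e8 (Nat.mul_dvd_mul k hN)⟩
  · obtain ⟨u, hu, hu1⟩ := (bot_or_exists_ne_one Z).resolve_left hne
    have k1 : R ≤ C[u] := fun w hw => mem_cen1.2 (mul_inv_eq_iff_eq_mul.1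
      (h4 _ ((mem_normalizer_iff.1 (hn hw) u).1 hu) u hu (conj_ne_one.2 hu1) hu1))
    obtain ⟨y, hy⟩ := isConj_iff.1 (h.cls2_one hS (h.oa_of_le_res hS hres).1 (hZ.orderOf Nat.prime_two hu hu1))
    have k2 : #R ∣ #C[t] := by
      rw [← FT.card_cj y C[t], show FT.cj y C[t] = C[u] from hy ▸ cj_cen1 y t]; exact card_dvd_of_le k1
    exact (hG r dvd_rfl (hH ▸ Nat.mul_dvd_mul k2 hN)).elim

end Cfsg.Agent.H22.SwF
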