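import Cfsg.Agent.H22.LC1
import Cfsg.Agent.H8.ZStar
import Cfsg.Agent.H4.Iso
import Cfsg.Agent.FT.Main

/-! The `Z*`-theorem for isolated `2`-elements. -/

set_option autoImplicit false
set_option linter.unusedSectionVars false

namespace Cfsg.Agent.P22

open Cfsg Subgroup Cfsg.Agent.FT
open scoped commutatorElement

universe u

theorem odd_top {G : Type*} [Group G] [Finite G] : O[{2}ᶜ]((⊤ : Subgroup G)) = pPrimeCore 2 G := by
  rw [← piCore_compl_singleton Nat.prime_two, ← pcore_top]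

theorem zstar_two (n : ℕ) : ∀ (G : Type u) [Group G] [Finite G], Nat.card G = n → ∀ x : G, PiElt {2} x →
    IsIsolated x → ∀ g : G, ⁅g, x⁆ ∈ pPrimeCore 2 G := by
  induction n using Nat.strong_induction_on with | _ n ih => ?_
  rintro G _ _ rfl x hx iso g
  have px := hx.zpowers.isPGroup
  have k : ∀ (K : Subgroup G) [K.Normal], K ≠ ⊥ → ⁅g, x⁆ ∈ (pPrimeCore 2 (G ⧸ K)).comap (QuotientGroup.mk' K) :=
    fun K _ h => by
      rw [mem_comap, map_commutatorElement]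
      exact ih _ (H2.card_quotient_lt_of_ne_bot h) _ rfl _ (piElt_iff.2 (MonoidHom.map_zpowers (QuotientGroup.mk' K) x ▸ hx.zpowers.map _))
        (H4.iso_map _ (QuotientGroup.mk'_surjective K) iso px) _
  haveI : (pPrimeCore 2 G).Normal := odd_top (G := G) ▸ nml_top_iff.1 (pcore_nml _ _)
  by_cases h0 : pPrimeCore 2 G = ⊥
  swap
  · have := k _ h0
    rwa [H2.pPrimeCore_quotient_self, MonoidHom.comap_bot, QuotientGroup.ker_mk'] at this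
  by_cases x1 : x = 1
  · rw [x1, commutatorElement_one_right]; exact one_mem _
  obtain ⟨z, hz, z2⟩ := hx.zpowers.exists_elt (zpowers_ne_bot.2 x1)
  have pz : PGrp 2 ⟪z⟫ := hx.zpowers.mono (zpowers_le.2 hz)
  obtain ⟨S, hS, xS⟩ := hx.zpowers.exists_syl le_top
  have hS' := (syl_iff_sylIn Nat.prime_two).1 hS
  have zc : ⟪z⟫ ≤ C((⊤ : Subgroup G)) := zpowers_le.2 (mem_cen.2 fun y _ => mem_center_iff.1 (H8.mem_center_of_isolated
    ⟨z2, H4.iso_of_syl hS' (xS hz) fun h => H4.iso_pow_eq iso hS'.isP (xS (mem_zpowers x)) hz⟩ h0) y)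
  haveI := nml_of_cen zc
  have y := k ⟪z⟫ (zpowers_ne_bot.2 fun e => by simp [e] at z2)
  rw [← odd_top] at y h0
  have nK : (O[{2}ᶜ]((⊤ : Subgroup (G ⧸ ⟪z⟫)))).comap (QuotientGroup.mk' ⟪z⟫) ⊴ ⊤ :=
    nml_top_iff.2 ((nml_top_iff.1 (pcore_nml _ _)).comap _)
  have sy : Syl 2 ⟪z⟫ ((O[{2}ᶜ]((⊤ : Subgroup (G ⧸ ⟪z⟫)))).comap (QuotientGroup.mk' ⟪z⟫)) :=
    ⟨(QuotientGroup.ker_mk' _).ge.trans (ker_le_comap _ _), pz, by
      conv => enter [2, 1]; rw [← QuotientGroup.ker_mk' ⟪z⟫, ← MonoidHom.comap_bot]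
      rw [relIndex_comap, map_comap_eq_self_of_surjective (QuotientGroup.mk'_surjective _), relIndex_bot_left]
      exact (pcore_pi _ _).piNat⟩
  have c := H4.coprime_res_of_central ((syl_iff_sylIn Nat.prime_two).1 sy) (le_top.trans (centsC zc))
  rw [pResidualOf_eq'] at c
  have e := (res_sup_syl sy).ge.trans (sup_le ((pcore_max ((p'nat_iff_coprime Nat.prime_two).2 c)
    ⟨le_top, norms_piGen _ nK.nrm⟩).trans (h0.trans_le bot_le)) le_rfl) y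
  have := iso g (by
    rw [show g * x * g⁻¹ = ⁅g, x⁆ * x by rw [commutatorElement_def, inv_mul_cancel_right]]
    exact Commute.mul_right (mem_cen.1 (zc e) x trivial) rfl)
  rw [commutatorElement_def, this, mul_inv_cancel]
  exact one_mem _

variable {G : Type u} [Group G] [Finite G] {N Q : Subgroup G} {t : G}

theorem iso_of_cen [N.Normal] (hG : Q ⊔ N = ⊤) (hz : t ∈ Z(Q)) (ht : t ∈ ⁅Q, Q⁆)
    (hC : N ⊓ C(Q) = N ⊓ C[t]) : IsIsolated t := by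
  intro g c
  obtain ⟨n, hn, q, hq, rfl⟩ := mem_sup_of_normal_left.1 (((sup_comm _ _).trans hG).ge (mem_top g))
  rw [show n * q * t * (n * q)⁻¹ = n * t * n⁻¹ by rw [mul_assoc n q, mem_cen.1 hz.2 q hq]; group] at c ⊢
  have cn : ∀ x : G, x⁻¹ * (n * x * n⁻¹) ∈ N := fun x => by
    simpa only [mul_assoc, inv_inv] using mul_mem (‹N.Normal›.conj_mem n hn x⁻¹) (inv_mem hn)
  have c1 : Q ≤ C[n * t * n⁻¹] := fun x hx => cen1_comm.1 (cen_le_cen1 hx (by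
    rw [← mul_inv_cancel_left t (n * t * n⁻¹)]
    exact mul_mem hz.2 (hC.ge (mem_inf.2 ⟨cn t, mul_mem (inv_mem (mem_cen1.2 rfl)) (mem_cen1.2 c.symm)⟩)).2))
  have hC' : N ⊓ C(cj n Q) = N ⊓ C[n * t * n⁻¹] := by
    rw [← cj_cen, ← cj_cen1, ← cj_of_mem hn, ← cj_inf, ← cj_inf, hC]
  have c2 : cj n Q ≤ C[t] := fun x hx => cen1_comm.1 (cen_le_cen1 hx (by
    rw [show t = n * t * n⁻¹ * (t⁻¹ * (n * t * n⁻¹))⁻¹ by rw [_root_.mul_inv_rev, inv_inv, mul_inv_cancel_left]]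
    refine mul_mem (cj_cen n Q ▸ conj_mem_cj.2 hz.2) (inv_mem (hC'.ge (mem_inf.2 ⟨cn t, mul_mem (inv_mem ?_) (mem_cen1.2 rfl)⟩)).2)
    exact mem_cen1.2 c))
  have d : ∀ x ∈ Q, x⁻¹ * (n * x * n⁻¹) ∈ C(Q) ∧ x⁻¹ * (n * x * n⁻¹) ∈ C(cj n Q) := fun x hx =>
    have e := cen1_comm.1 (cen_le_cen1 hx hz.2)
    ⟨(hC.ge (mem_inf.2 ⟨cn x, mul_mem (inv_mem e) (c2 (conj_mem_cj.2 hx))⟩)).2,
      (hC'.ge (mem_inf.2 ⟨cn x, mul_mem (inv_mem (c1 hx)) (cj_cen1 n t ▸ conj_mem_cj.2 e)⟩)).2⟩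
  refine mul_inv_eq_iff_eq_mul.2 (mem_cen1.1 ((comm_le_iff.2 fun x hx y hy => mem_cen1.2 ?_ : ⁅Q, Q⁆ ≤ C[n]) ht)).symm
  rw [eq_comm, ← mul_inv_eq_iff_eq_mul, conjugate_commutatorElement, ← mul_inv_cancel_left x (n * x * n⁻¹),
    ← mul_inv_cancel_left y (n * y * n⁻¹)]
  have e1 := mem_cen.1 (d x hx).1
  have e2 := mem_cen.1 (d y hy).1
  have e3 : Commute (x⁻¹ * (n * x * n⁻¹)) (y⁻¹ * (n * y * n⁻¹)) :=
    Commute.mul_right (e1 _ (inv_mem hy)).symm (mem_cen.1 (d x hx).2 _ (conj_mem_cj.2 hy)).symm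
  generalize x⁻¹ * (n * x * n⁻¹) = a at *
  generalize y⁻¹ * (n * y * n⁻¹) = b at *
  calc ⁅x * a, y * b⁆ = x * (a * y) * (b * a⁻¹ * x⁻¹) * b⁻¹ * y⁻¹ := by simp only [commutatorElement_def]; group
    _ = x * y * (a * b * a⁻¹) * (x⁻¹ * b⁻¹) * y⁻¹ := by rw [← e1 y hy]; group
    _ = x * y * (b * x⁻¹) * b⁻¹ * y⁻¹ := by rw [e3.eq]; group
    _ = _ := by rw [← e2 _ (inv_mem hx)]; simp only [commutatorElement_def]; group

theorem odd_comm [N.Normal] (hG : Q ⊔ N = ⊤) (hQ : PGrp 2 Q) (hz : t ∈ Z(Q)) (ht : t ∈ ⁅Q, Q⁆)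
    (hC : N ⊓ C(Q) = N ⊓ C[t]) : Odd #⁅N, Q⁆ := by
  have pt := hQ.piElt hz.1
  have k := zstar_two _ G rfl t pt (iso_of_cen hG hz ht hC)
  rw [← odd_top] at k
  have n : ⊤ ≤ N(N ⊓ O[{2}ᶜ]((⊤ : Subgroup G))) := normsI (nml_top_iff.2 ‹_›).nrm (pcore_nrm _ _)
  have p' : PiGrp {2}ᶜ (N ⊓ O[{2}ᶜ]((⊤ : Subgroup G))) := (pcore_pi _ _).mono inf_le_right
  have m := coprime_cent_prod_of_le inf_le_left (le_top.trans n) (p'.cop' pt.zpowers) (.inr pt.zpowers.sol)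
    (le_inf (comm_le_left (le_top.trans (nml_top_iff.2 ‹_›).nrm)) ((commC _ _).trans_le (le_Cm.1
      (zpowers_le.2 (mem_Cm.2 ⟨pcore_nrm _ ⊤ trivial, fun g _ => k g⟩) : ⟪t⟫ ≤ Cm _ N)).2 |> (commC _ _).trans_le))
  rw [cen_zpowers, ← hC] at m
  exact Nat.odd_iff.2 (Nat.two_dvd_ne_zero.1 ((p'grp_iff Nat.prime_two).1 (p'.mono ((commSS m.sup.ge le_rfl).trans
    (comm_sup_le (le_top.trans n) (comm_le_left (le_top.trans n)) ((comm_eq_bot.2 inf_le_right).trans_le bot_le))))))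

end Cfsg.Agent.P22
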